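import Cfsg.Agent.OddInvol.Orbit
import Cfsg.Agent.Chevalley.Core

/-!
Part 18: the torus elements of order two as masks, and the action of the monomial subgroup on them.
-/

set_option autoImplicit false

namespace CfsgLib.OddInvol

open Cfsg.Lie CfsgLib.Chevalley
open scoped Matrix

variable {D : ChevalleyDatum} {F : Type*} [Field F]

/-- The sign attached to an element of `ZMod 2`. -/
def sgnU (F : Type*) [Field F] (z : ZMod 2) : Fˣ := if z = 0 then 1 else -1

theorem sgnU_add (a b : ZMod 2) : sgnU F (a + b) = sgnU F a * sgnU F b := by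
  have h : ∀ z : ZMod 2, z = 0 ∨ z = 1 := by decide
  have h11 : (1 : ZMod 2) + 1 = 0 := rfl
  rcases h a with rfl | rfl <;> rcases h b with rfl | rfl <;> simp [sgnU, h11]

theorem sgnU_injective (h2 : (2 : F) ≠ 0) : Function.Injective (sgnU F) := by
  have hne : (-1 : Fˣ) ≠ 1 := fun e => by
    have e' : (-1 : F) = 1 := by simpa using congrArg Units.val e
    exact h2 (by linear_combination -e')
  intro a b h
  have hz : ∀ z : ZMod 2, z = 0 ∨ z = 1 := by decide
  rcases hz a with rfl | rfl <;> rcases hz b with rfl | rfl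
  · rfl
  · simp only [sgnU, if_true, one_ne_zero, if_false] at h; exact absurd h.symm hne
  · simp only [sgnU, if_true, one_ne_zero, if_false] at h; exact absurd h hne
  · rfl

variable (S : Sys D)

/-- The torus element of `c` is the one of the mask `e`. -/
def HasMask (e : ℕ) (c : ℕ → Fˣ) : Prop :=
  ∀ r < D.nroots, torusVal D c r = sgnU F (cls S e r)

theorem torusVal_prod (c : ℕ → Fˣ) {s : ℕ} (hs : s < D.nroots) :
    torusVal D c s = ∏ m ∈ Finset.range D.rank, torusVal D c (D.simple m) ^ S.vec m s := by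
  simp only [torusVal, ← Finset.prod_zpow]
  rw [Finset.prod_comm]
  refine Finset.prod_congr rfl fun j hj => ?_
  rw [S.cartan_vec j (Finset.mem_range.mp hj) s hs, ← List.sum_toFinset _ List.nodup_range,
    List.toFinset_range, prod_zpow_sum]
  exact Finset.prod_congr rfl fun m _ => by rw [mul_comm, zpow_mul]

theorem sgnU_zpow (z : ZMod 2) (k : ℤ) : sgnU F z ^ k = sgnU F ((k : ZMod 2) * z) := by
  rcases Int.emod_two_eq_zero_or_one k with h | h
  · rw [(ZMod.intCast_zmod_eq_zero_iff_dvd k 2).mpr (Int.dvd_of_emod_eq_zero h), zero_mul]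
    obtain ⟨j, rfl⟩ := Int.dvd_of_emod_eq_zero h
    rw [zpow_mul]
    simp only [sgnU]
    split_ifs <;> simp
  · have hk : (k : ZMod 2) = 1 := by
      rw [← Int.cast_one, ZMod.intCast_eq_intCast_iff']
      exact h
    rw [hk, one_mul]
    obtain ⟨j, rfl⟩ : ∃ j, k = 2 * j + 1 := ⟨k / 2, by omega⟩
    rw [zpow_add, zpow_mul, zpow_one]
    simp only [sgnU]
    split_ifs <;> simp

theorem sgnU_sum {ι : Type*} (s : Finset ι) (f : ι → ZMod 2) :
    sgnU F (∑ i ∈ s, f i) = ∏ i ∈ s, sgnU F (f i) := by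
  classical
  induction s using Finset.induction_on with
  | empty => simp [sgnU]
  | insert a s ha ih => rw [Finset.sum_insert ha, Finset.prod_insert ha, sgnU_add, ih]

/-- A torus element with values `±1` on the fundamental roots has a mask. -/
theorem hasMask_of_simple {e : ℕ} {c : ℕ → Fˣ}
    (h : ∀ m < D.rank, torusVal D c (D.simple m) = sgnU F (if Nat.testBit e m then 1 else 0)) :
    HasMask S e c := by
  intro r hr
  rw [torusVal_prod S c hr, cls, sgnU_sum]
  refine Finset.prod_congr rfl fun m hm => ?_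
  rw [h m (Finset.mem_range.mp hm), sgnU_zpow]
  split_ifs <;> simp

include S in
/-- An involutive torus element has a mask. -/
theorem exists_mask {c : ℕ → Fˣ} (hc : tor D F c * tor D F c = 1) :
    ∃ e < 2 ^ D.rank, HasMask S e c := by
  classical
  have hv : ∀ m < D.rank,
      torusVal D c (D.simple m) = 1 ∨ torusVal D c (D.simple m) = -1 := by
    intro m hm
    have h1 := congrArg (fun g : GL D.Idx F => (g : Matrix D.Idx D.Idx F)) hc
    simp only [Units.val_mul, S.tor_val, dg_mul, Units.val_one] at h1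
    rw [← dg_ones (D := D)] at h1
    have h2 := dg_inj h1 (S.wf.simple_lt m hm)
    rcases mul_self_eq_one_iff.mp h2 with h3 | h3
    · exact Or.inl (Units.ext h3)
    · exact Or.inr (Units.ext (by simpa using h3))
  refine ⟨Nat.ofBits fun m : Fin D.rank => decide (torusVal D c (D.simple m) ≠ 1),
    Nat.ofBits_lt_two_pow _, hasMask_of_simple S fun m hm => ?_⟩
  rw [Nat.testBit_ofBits_lt _ _ hm]
  by_cases h1 : torusVal D c (D.simple m) = 1
  · simp [h1, sgnU]
  · rw [(hv m hm).resolve_left h1]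
    simp [h1, sgnU]

theorem matPow_ext {l : ℕ} (A : Matrix (Fin l) (Fin l) ℤ) {M : Type*} [CommGroup M]
    (B : Matrix (Fin l) (Fin l) ℤ) (h : B * A = 1) (ε : Fin l → M) :
    matPow A (matPow B ε) = ε := by
  rw [matPow_comp, h, matPow_one]

/-- Every mask is the mask of a torus element. -/
theorem exists_hasMask (B : Matrix (Fin D.rank) (Fin D.rank) ℤ) (hB : B * cartanMat D = 1)
    (e : ℕ) : ∃ c : ℕ → Fˣ, HasMask S e c := by
  classical
  set ε : Fin D.rank → Fˣ := fun m => sgnU F (if Nat.testBit e m then 1 else 0)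
  set c₀ := matPow B ε
  refine ⟨fun j => if h : j < D.rank then c₀ ⟨j, h⟩ else 1, hasMask_of_simple S fun m hm => ?_⟩
  have : torusVal D (fun j => if h : j < D.rank then c₀ ⟨j, h⟩ else 1) (D.simple m) =
      matPow (cartanMat D) c₀ ⟨m, hm⟩ := by
    rw [torusVal, Finset.prod_range, matPow_apply]
    refine Finset.prod_congr rfl fun j _ => ?_
    simp [cartanMat]
  rw [this, matPow_ext _ B hB]

theorem tor_eq_of_mask {e : ℕ} {c c' : ℕ → Fˣ} (hc : HasMask S e c) (hc' : HasMask S e c') :
    tor D F c = tor D F c' := by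
  refine Units.ext ?_
  rw [S.tor_val, S.tor_val]
  exact dg_congr fun s hs => by rw [hc s hs, hc' s hs]

include S in
theorem torusVal_eq_of_tor {c c' : ℕ → Fˣ} (h : tor D F c = tor D F c') {s : ℕ}
    (hs : s < D.nroots) : torusVal D c s = torusVal D c' s := by
  have h1 := congrArg (fun g : GL D.Idx F => (g : Matrix D.Idx D.Idx F)) h
  simp only [S.tor_val] at h1
  exact Units.ext (dg_inj h1 hs)

theorem xG_injective {r : ℕ} (hr : r < D.nroots) {a b : F} (h : S.xG F r a = S.xG F r b) :
    a = b := by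
  have h1 : S.xG F r (a + -b) = 1 := by rw [← S.xG_add, ← S.xG_inv, h, mul_inv_cancel]
  rw [S.xG_eq_one_iff F hr] at h1
  linear_combination h1

include S in
/-- The monomial subgroup permutes the characters of the torus. -/
theorem conj_tor (n : ↥(D.monomialSubgroup F)) (c : ℕ → Fˣ) :
    ∃ d, (n : GL D.Idx F) * tor D F c * (n : GL D.Idx F)⁻¹ = tor D F d ∧
      ∀ r : Fin D.nroots, torusVal D d (S.perm F n r : ℕ) = torusVal D c r := by
  have hmem : (n : GL D.Idx F) * tor D F c * (n : GL D.Idx F)⁻¹ ∈ D.diagonalSubgroup F :=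
    (Subgroup.mem_normalizer_iff.mp (S.monomial_le_normalizer F n.2) _).mp
      (by rw [S.diagonal_eq]; exact ⟨c, rfl⟩)
  rw [S.diagonal_eq] at hmem
  obtain ⟨d, hd⟩ := hmem
  refine ⟨d, hd.symm, fun r => Units.ext ?_⟩
  obtain ⟨a, ha, hat⟩ := S.conj_root F n r
  have h1 : tor D F d * S.xG F (S.perm F n r : ℕ) (a * 1) * (tor D F d)⁻¹ =
      S.xG F (S.perm F n r : ℕ) (a * ((torusVal D c r : F) * 1)) := by
    rw [hd, ← (hat 1).1, ← (hat _).1, ← S.tor_conj F c r.isLt]
    group
  rw [S.tor_conj F d (Fin.isLt _)] at h1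
  have h2 := xG_injective S (Fin.isLt _) h1
  simp only [mul_one] at h2
  exact mul_left_cancel₀ ha (by linear_combination h2)

/-- Conjugation by a fundamental reflection follows the orbit check. -/
theorem conj_reflect {T : Tab} (h : Checked D T) {P : ParTab} (hP : chkPar D T P = true)
    {e : ℕ} (he : e < 2 ^ D.rank) {i : ℕ} (hi : i < D.rank) {c : ℕ → Fˣ} (hc : HasMask h.sys e c) :
    ∃ d, h.sys.nG F (D.simple i) 1 * tor D F c * (h.sys.nG F (D.simple i) 1)⁻¹ = tor D F d ∧
      HasMask h.sys (maskAt P D.rank e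
        ((List.range D.rank).map fun m => D.reflectRoot i (D.simple m))) d := by
  obtain ⟨d, hd, hval⟩ := conj_tor h.sys (h.sys.nN F ⟨i, hi⟩) c
  refine ⟨d, hd, fun r hr => ?_⟩
  have hw : h.sys.wperm [⟨i, hi⟩] = h.sys.srefl ⟨i, hi⟩ := by simp [Sys.wperm]
  have h1 := hval (h.sys.srefl ⟨i, hi⟩ ⟨r, hr⟩)
  rw [h.sys.perm_nN, ← Equiv.Perm.mul_apply, h.sys.srefl_mul_self, Equiv.Perm.one_apply] at h1
  rw [show r = ((⟨r, hr⟩ : Fin D.nroots) : ℕ) from rfl, h1, hc _ (Fin.isLt _),
    ← cls_maskAt h hP he [⟨i, hi⟩] _ (fun k => ?_) ⟨r, hr⟩, hw]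
  rw [hw, List.getD_eq_getElem _ _ (by simp)]
  simp [Sys.srefl_val, Sys.simpleF]

end CfsgLib.OddInvol
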