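import Cfsg.Agent.Chevalley.Sound
import Cfsg.Agent.Chevalley.CentralizerFix

/-!
Part 3: certificates for the descent, one for each set of fundamental roots, and their checks.
-/

set_option autoImplicit false

namespace CfsgLib.OddInvol

open Cfsg.Lie CfsgLib.Chevalley

/-- A family of long or short root vectors: the basis roots `M`, the dual rows `P` with signs, an
invariant form `B`, generating roots, Weyl moves to the first basis vector, elimination steps
`(root, index, coefficient)` and the index left to the form. -/
structure Fam where
  /-- the roots of the family, the highest first -/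
  M : List ℕ
  /-- the dual rows -/
  P : List (ℕ × ℤ)
  /-- the invariant form -/
  B : List (List ℤ)
  /-- the generating roots -/
  gens : List ℕ
  /-- Weyl words moving a basis root to the first one -/
  moves : List (Option (List ℕ))
  /-- elimination steps -/
  steps : List (ℕ × ℕ × ℤ)
  /-- the index left to the form -/
  last : Option ℕ

/-- A certificate for a set of fundamental roots. -/
inductive Cert where
  | contra (μ : ℕ)
  | two (μ ν j : ℕ) (c : ℤ)
  | fam (f : Fam)

variable (D : ChevalleyDatum) (T : Tab)

/-- The positions outside `J`. -/
def outPos (J : List ℕ) : List ℕ := (List.range D.rank).filter fun o => !J.contains o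

/-- `a` can be the image of `s` under an element acting as `-1` on `J`. -/
def cand (J : List ℕ) (s a : ℕ) : Bool :=
  ((outPos D J).all fun o => decide (T.coord D.rank o a = T.coord D.rank o s)) &&
    J.all fun j => decide (D.cartan j a = -D.cartan j s)

/-- `a ≤ s` coordinatewise. -/
def aboveB (s a : ℕ) : Bool :=
  (List.range D.rank).all fun m => decide (T.coord D.rank m a ≤ T.coord D.rank m s)

/-- The entry `(bot, top)` is non-zero on the cell. -/
def chkEntry (J : List ℕ) (top bot : ℕ) : Bool :=
  decide (top < D.nroots) && decide (D.nroots / 2 ≤ top) && decide (bot < D.nroots) &&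
  ((List.range D.nroots).all fun a => !cand D T J top a || a == bot) &&
  (List.range D.nroots).all fun s => s == top || !aboveB D T s top ||
    (List.range D.nroots).all fun a => !cand D T J s a || !aboveB D T bot a

/-- The coefficients that are invertible in odd characteristic. -/
def unitB (a : ℤ) : Bool := decide (a = 1 ∨ a = -1 ∨ a = 2 ∨ a = -2 ∨ a = 4 ∨ a = -4)

/-- The image of a root under a word of fundamental reflections. -/
def wImg (L : List ℕ) (r : ℕ) : ℕ := L.foldr D.reflectRoot r

/-- The monomial sum of the entry `(tgt, src)` of `x_r(t)`. -/
def entryPoly (r tgt src : ℕ) : List Mon :=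
  ((colTerms D r src).filter fun q => q.1 == tgt).map fun q => (q.2.1, q.2.2, 0)

/-- A scalar monomial sum as a formal vector. -/
def scal (P : List Mon) : List (ℕ × Mon) := P.map fun m => (0, m)

/-- Scaling a monomial sum. -/
def psmul (a : ℤ) (P : List Mon) : List Mon := P.map fun m => (a * m.1, m.2.1, m.2.2)

/-- Two monomial sums are equal. -/
def polyEqB (P Q : List Mon) : Bool := normV (scal P) == normV (scal Q)

namespace Fam

variable (f : Fam)

/-- The basis root. -/
def root (i : ℕ) : ℕ := f.M.getD i 0

/-- The dual row. -/
def row (i : ℕ) : ℕ := (f.P.getD i (0, 0)).1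

/-- The sign of the dual row. -/
def sgn (i : ℕ) : ℤ := (f.P.getD i (0, 0)).2

/-- The form. -/
def form (i j : ℕ) : ℤ := (f.B.getD i []).getD j 0

/-- The entry of `x_r(t)` on the basis. -/
def sub (r k i : ℕ) : List Mon := entryPoly D r (D.rank + f.root k) (D.rank + f.root i)

/-- The generator `r` preserves the family, the form and the dual rows. -/
def chkGen (r : ℕ) : Bool :=
  decide (r < D.nroots) &&
  ((List.range f.M.length).all fun i =>
    (normV ((colTerms D r (D.rank + f.root i)).map fun q => (q.1, q.2.1, q.2.2, 0)) ==
      normV ((List.range f.M.length).flatMap fun k =>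
        (f.sub D r k i).map fun m => (D.rank + f.root k, m))) &&
    ((List.range f.M.length).all fun j => polyEqB
      ((List.range f.M.length).flatMap fun k => (List.range f.M.length).flatMap fun l =>
        psmul (f.form k l) (pmul (f.sub D r k i) (f.sub D r l j)))
      [(f.form i j, 0, 0)]) &&
    (List.range (D.rank + D.nroots)).all fun c => polyEqB
      ((List.range f.M.length).flatMap fun k =>
        psmul (f.sgn k) (pmul (f.sub D r k i) (entryPoly D r (D.rank + f.row k) c)))
      [(if c = D.rank + f.row i then f.sgn i else 0, 0, 0)])

/-- A Weyl move sends the basis root `i`, and no other one, to the first one. -/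
def chkMove (i : ℕ) (L : List ℕ) : Bool :=
  (L.all fun j => decide (j < D.rank) && f.gens.contains (D.simple j) &&
    f.gens.contains (D.neg (D.simple j))) &&
  (List.range f.M.length).all fun l =>
    decide (wImg D L (f.root l) = f.root 0 ↔ l = i)

/-- An elimination step after the indices in `z`. -/
def chkStep (z : List ℕ) (e : ℕ × ℕ × ℤ) : Bool :=
  f.gens.contains e.1 && decide (e.2.1 < f.M.length) && decide (e.2.1 ≠ 0) && !z.contains e.2.1 &&
  unitB e.2.2 &&
  (0 :: e.2.1 :: z).all fun k => (List.range f.M.length).all fun l => z.contains l ||
    polyEqB (f.sub D e.1 k l)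
      [(if k = l then 1 else 0, 0, 0), (if k = e.2.1 ∧ l = 0 then e.2.2 else 0, 1, 0)]

/-- The elimination steps leave only the first index and the last one. -/
def chkSteps : List (ℕ × ℕ × ℤ) → List ℕ → Bool
  | [], z => (List.range f.M.length).all fun l => l == 0 || z.contains l ||
      (f.last == some l && decide (f.form 0 0 = 0) && decide (f.form l l = 0) &&
        unitB (f.form 0 l + f.form l 0))
  | e :: L, z => chkStep D f z e && chkSteps L (e.2.1 :: z)

/-- Check of a family. -/
def chk (J : List ℕ) : Bool :=
  decide (f.P.length = f.M.length) && decide f.M.Nodup &&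
  (f.M.all fun s => decide (s < D.nroots)) && (f.P.all fun p => decide (p.1 < D.nroots)) &&
  (decide (5 ≤ f.M.length) || (decide (3 ≤ f.M.length) &&
    (List.range f.M.length).all fun i => (List.range f.M.length).all fun j =>
      decide (f.form i j = 0))) &&
  unitB (f.sgn 0) && chkEntry D T J (f.root 0) (f.row 0) &&
  (f.gens.all fun r => chkGen D f r &&
    (outPos D J).all fun o => decide (T.coord D.rank o r = 0)) &&
  ((List.range f.M.length).all fun i => match f.moves.getD i none with
    | some L => chkMove D f i L
    | none => unitB (f.form i i) && (List.range f.M.length).all fun l => l == i ||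
        (f.moves.getD l none).isSome) &&
  chkSteps D f f.steps []

end Fam

/-- Check of a certificate. -/
def chkCert (J : List ℕ) : Cert → Bool
  | .contra μ => decide (μ < D.nroots) && (List.range D.nroots).all fun a => !cand D T J μ a
  | .two μ ν j c => chkEntry D T J μ ν && J.contains j && decide (μ ≠ ν) && decide (j < D.rank) &&
      unitB c &&
      ((outPos D J).any fun o => decide (T.coord D.rank o μ ≠ 0)) &&
      ((outPos D J).all fun o => decide (T.coord D.rank o ν = T.coord D.rank o μ)) &&
      ((List.range D.nroots).all fun s => s == μ || s == ν ||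
        (outPos D J).any fun o => decide (T.coord D.rank o s ≠ T.coord D.rank o μ)) &&
      polyEqB (entryPoly D (D.neg (D.simple j)) (D.rank + μ) (D.rank + μ)) [(1, 0, 0)] &&
      polyEqB (entryPoly D (D.neg (D.simple j)) (D.rank + ν) (D.rank + μ)) [(c, 1, 0)] &&
      polyEqB (entryPoly D (D.neg (D.simple j)) (D.rank + μ) (D.rank + ν)) [] &&
      polyEqB (entryPoly D (D.neg (D.simple j)) (D.rank + ν) (D.rank + ν)) [(1, 0, 0)]
  | .fam f => f.chk D T J

/-- Every non-empty set of fundamental roots has a valid certificate. -/
def chkCerts (L : List (List ℕ × Cert)) : Bool :=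
  (List.range D.rank).sublists.all fun J => J.isEmpty ||
    L.any fun e => decide (e.1 = J) && chkCert D T J e.2

end CfsgLib.OddInvol
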