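import Cfsg.Agent.OddInvol.Springer
import Cfsg.Agent.OddInvol.Cert

/-!
Part 4: a certified entry is non-zero on the cell, so a conjugate by an element of the parabolic
subgroup with that entry zero lies in a shorter cell; the rank one certificate.
-/

set_option autoImplicit false

namespace CfsgLib.OddInvol

open Cfsg.Lie CfsgLib.Chevalley
open scoped Matrix

variable {D : ChevalleyDatum} {T : Tab} (h : Checked D T) (F : Type*) [Field F]

/-- The set of a list. -/
def lset (J : List ℕ) : Set ℕ := {j | j ∈ J}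

theorem mem_outPos {J : List ℕ} {o : ℕ} : o ∈ outPos D J ↔ o < D.rank ∧ o ∉ lset J := by
  simp [outPos, lset]

include h in
theorem above_of {s a : ℕ} (hab : aboveB D T s a = true) : Above h.sys s a := by
  intro m hm
  simp only [aboveB, List.all_eq_true, List.mem_range, decide_eq_true_eq] at hab
  exact hab m hm

include h in
theorem aboveB_of {s a : ℕ} (hab : Above h.sys s a) : aboveB D T s a = true := by
  simp only [aboveB, List.all_eq_true, List.mem_range, decide_eq_true_eq]
  exact fun m hm => hab m hm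

variable {F}

/-- The conjugates of the fixed element have cells at least as long as `n`. -/
structure Setup (J : List ℕ) (g : GL D.Idx F) (n : ↥(D.monomialSubgroup F)) : Prop where
  hS : h.sys.SupportEq
  hJ : ∀ j ∈ J, j < D.rank
  hsq : h.sys.perm F n * h.sys.perm F n = 1
  hneg : IsNegOn h.sys n (lset J)
  cell : ∃ b ∈ D.borelSubgroup F, ∃ c ∈ D.borelSubgroup F, g = b * (n : GL D.Idx F) * c
  gg : g * g = 1
  min : ∀ x ∈ D.group F, ∀ k', HasLen h.sys F (x * g * x⁻¹) k' →
    (invSet (h.sys.perm F n)).card ≤ k'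

variable {J : List ℕ} {g : GL D.Idx F} {n : ↥(D.monomialSubgroup F)}

theorem Setup.mem_parabolic (hs : Setup h J g n) : g ∈ D.parabolicSubgroup F (lset J) := by
  obtain ⟨b, hb, c, hc, rfl⟩ := hs.cell
  exact mul_mem (mul_mem (Subgroup.mem_sup_left hb)
    (IsNegOn.mem_parabolic h.sys hs.hS hs.hsq hs.hneg)) (Subgroup.mem_sup_left hc)

theorem Setup.cand_perm (hs : Setup h J g n) (s : Fin D.nroots) :
    cand D T J s (h.sys.perm F n s : ℕ) = true := by
  simp only [cand, Bool.and_eq_true, List.all_eq_true, decide_eq_true_eq]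
  refine ⟨fun o ho => ?_, fun j hj => IsNegOn.cartan_perm h.sys hs.hneg (hs.hJ j hj) hj s⟩
  obtain ⟨ho1, ho2⟩ := mem_outPos.mp ho
  exact vec_perm_eq_of_parabolic h.sys hs.hS n
    (IsNegOn.mem_parabolic h.sys hs.hS hs.hsq hs.hneg) ho1 ho2 s

/-- Every element of the cell of `n` has non-zero entry `(bot, top)`. -/
theorem Setup.entry_ne (hs : Setup h J g n) {top bot : Fin D.nroots}
    (hc : chkEntry D T J top bot = true) {b c : GL D.Idx F} (hb : b ∈ D.borelSubgroup F)
    (hcc : c ∈ D.borelSubgroup F) {m : ↥(D.monomialSubgroup F)}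
    (hm : h.sys.perm F m = h.sys.perm F n) :
    ((b * (m : GL D.Idx F) * c : GL D.Idx F) : Matrix D.Idx D.Idx F)
      (Sum.inr bot) (Sum.inr top) ≠ 0 := by
  simp only [chkEntry, Bool.and_eq_true, Bool.or_eq_true, List.all_eq_true, List.mem_range,
    decide_eq_true_eq, Bool.not_eq_true', beq_iff_eq] at hc
  obtain ⟨⟨⟨⟨-, htop⟩, -⟩, huniq⟩, habove⟩ := hc
  have hmono := (h.sys.exists_mono F m.2).choose_spec
  have hσ : (h.sys.exists_mono F m.2).choose = h.sys.perm F n := hm
  rw [hσ] at hmono
  have hbot : h.sys.perm F n top = bot := by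
    rcases huniq _ (Fin.isLt (h.sys.perm F n top)) with h1 | h1
    · rw [Setup.cand_perm h hs top] at h1; cases h1
    · exact Fin.ext h1
  set B := (b : Matrix D.Idx D.Idx F) with hB
  set M := ((m : GL D.Idx F) : Matrix D.Idx D.Idx F) with hM
  set C := (c : Matrix D.Idx D.Idx F) with hC
  have hMs : ∀ (a : D.Idx) (s : Fin D.nroots), M a (Sum.inr s) ≠ 0 →
      a = Sum.inr (h.sys.perm F n s) := by
    rintro (i | u) s hne
    · exact absurd (hmono.2.1 i s) hne
    · rw [hmono.1 u s hne]
  have hcol : ∀ s : Fin D.nroots, (B * M) (Sum.inr bot) (Sum.inr s) =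
      B (Sum.inr bot) (Sum.inr (h.sys.perm F n s)) *
        M (Sum.inr (h.sys.perm F n s)) (Sum.inr s) := by
    intro s
    rw [Matrix.mul_apply]
    refine Finset.sum_eq_single_of_mem _ (Finset.mem_univ _) fun a _ ha => ?_
    by_contra hne
    exact ha (hMs a s (right_ne_zero_of_mul hne))
  rw [Units.val_mul, Units.val_mul, ← hB, ← hM, ← hC, Matrix.mul_apply,
    Finset.sum_eq_single_of_mem (Sum.inr top) (Finset.mem_univ _) fun a _ ha => ?_]
  · rw [hcol, hbot]
    refine mul_ne_zero (mul_ne_zero (borel_diag_ne h.sys F hb _) ?_) (borel_diag_ne h.sys F hcc _)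
    obtain ⟨row, hrow⟩ := exists_col_ne_zero (m : GL D.Idx F) (Sum.inr top)
    rw [hMs row top hrow, hbot] at hrow
    exact hrow
  · rcases a with j | s
    · rw [show C (Sum.inl j) (Sum.inr top) = 0 from borel_inl_col_zero h.sys F hs.hS hcc htop,
        mul_zero]
    · rw [hcol]
      by_contra hne
      have h1 := aboveB_of h (above_of_borel h.sys F hs.hS hcc (right_ne_zero_of_mul hne))
      have h2 := aboveB_of h (above_of_borel h.sys F hs.hS hb
        (left_ne_zero_of_mul (left_ne_zero_of_mul hne)))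
      rcases habove s s.isLt with (h3 | h3) | h3
      · exact ha (by rw [Fin.ext h3])
      · rw [h1] at h3; cases h3
      · rcases h3 _ (Fin.isLt (h.sys.perm F n s)) with h4 | h4
        · rw [Setup.cand_perm h hs s] at h4; cases h4
        · rw [h2] at h4; cases h4

/-- The certified entry is non-zero on all conjugates by the parabolic subgroup. -/
theorem Setup.conj_entry_ne (hs : Setup h J g n) {top bot : Fin D.nroots}
    (hc : chkEntry D T J top bot = true) {k : GL D.Idx F}
    (hk : k ∈ D.parabolicSubgroup F (lset J)) :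
    ((k * g * k⁻¹ : GL D.Idx F) : Matrix D.Idx D.Idx F) (Sum.inr bot) (Sum.inr top) ≠ 0 := by
  classical
  set S := h.sys
  have hle : D.parabolicSubgroup F (lset J) ≤ D.group F := by
    rw [← S.normalizer_radical F hs.hS]; exact inf_le_right
  have hB : D.borelSubgroup F ≤ D.parabolicSubgroup F (lset J) := le_sup_left
  have hg' : k * g * k⁻¹ ∈ D.parabolicSubgroup F (lset J) :=
    mul_mem (mul_mem hk (Setup.mem_parabolic h hs)) (inv_mem hk)
  obtain ⟨a, ha, m, hm, d, hd, e⟩ := S.exists_bruhat F (hle hg')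
  have hmP : m ∈ D.parabolicSubgroup F (lset J) := by
    have := mul_mem (mul_mem (inv_mem (hB ha)) hg') (inv_mem (hB hd))
    rw [e] at this
    simpa [mul_assoc] using this
  set mm : ↥(D.monomialSubgroup F) := ⟨m, hm⟩
  have hcard := hs.min k (hle hk) _ ⟨a, ha, mm, d, hd, e, rfl⟩
  -- the inversions of `m` lie in the root subsystem of `J`
  have hsub : invSet (S.perm F mm) ⊆ invSet (S.perm F n) := by
    intro r hr
    rw [mem_invSet] at hr ⊢
    refine ⟨hr.1, (IsNegOn.flip_iff S hs.hS hs.hsq hs.hneg r hr.1).mpr ?_⟩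
    by_contra hout
    obtain ⟨o, ho, hoJ, hpos⟩ := S.exists_out hs.hS r.isLt hr.1 hout
    rw [← vec_perm_eq_of_parabolic S hs.hS mm hmP ho hoJ r] at hpos
    have := S.pos_of_vec (Fin.isLt _) ho hpos
    omega
  have heq : invSet (S.perm F mm) = invSet (S.perm F n) := Finset.eq_of_subset_of_card_le hsub hcard
  have hperm : S.perm F mm = S.perm F n := by
    obtain ⟨L, hL⟩ := S.exists_wperm F (mm * n⁻¹)
    have key : S.wperm L = 1 := S.wperm_eq_one F L fun s hsp => by
      rw [← hL, map_mul, map_inv, Equiv.Perm.mul_apply]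
      set u := (S.perm F n)⁻¹ s with hu
      have hus : S.perm F n u = s := by rw [hu, Equiv.Perm.inv_def, Equiv.apply_symm_apply]
      by_contra hlt
      rcases lt_or_ge (u : ℕ) (D.nroots / 2) with hup | hup
      · have h1 : S.negF u ∈ invSet (S.perm F n) := by
          rw [mem_invSet, S.perm_negF, hus]
          exact ⟨S.root_lt_pos u.isLt hup, S.lt_half_negF.mpr hsp⟩
        rw [← heq, mem_invSet, S.perm_negF] at h1
        have := S.lt_half_negF.mp h1.2
        omega
      · have h1 : u ∈ invSet (S.perm F mm) := by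
          rw [mem_invSet]; exact ⟨hup, by omega⟩
        rw [heq, mem_invSet, hus] at h1
        omega
    rw [key, map_mul, map_inv, mul_inv_eq_one] at hL
    exact hL
  rw [e]
  exact Setup.entry_ne h hs hc ha hd hperm

theorem contra_absurd (hs : Setup h J g n) {μ : ℕ}
    (hc : chkCert D T J (.contra μ) = true) : False := by
  simp only [chkCert, Bool.and_eq_true, List.all_eq_true, List.mem_range, decide_eq_true_eq,
    Bool.not_eq_true'] at hc
  have := hc.2 _ (Fin.isLt (h.sys.perm F n ⟨μ, hc.1⟩))
  rw [Setup.cand_perm h hs ⟨μ, hc.1⟩] at this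
  cases this

end CfsgLib.OddInvol
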