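import Cfsg.Agent.OddInvol.Two
import Mathlib.FieldTheory.ChevalleyWarning

/-!
Part 7: the family certificates: two quadrics in the coordinates of the family have a common zero,
and a common zero moves to the first basis vector.
-/

set_option autoImplicit false

namespace CfsgLib.OddInvol

open Cfsg.Lie CfsgLib.Chevalley
open scoped Matrix

variable {D : ChevalleyDatum} {F : Type*} [Field F]

namespace Fam

variable (f : Fam) (hM : ∀ i : Fin f.M.length, f.root i < D.nroots)
  (hP : ∀ i : Fin f.M.length, f.row i < D.nroots)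

/-- A basis root as an index. -/
def idxM (i : Fin f.M.length) : D.Idx := Sum.inr ⟨f.root i, hM i⟩

/-- A dual row as an index. -/
def idxP (i : Fin f.M.length) : D.Idx := Sum.inr ⟨f.row i, hP i⟩

/-- The embedding of the coordinates. -/
def emb : Matrix D.Idx (Fin f.M.length) F :=
  Matrix.of fun a i => if a = f.idxM hM i then 1 else 0

/-- The dual rows. -/
def rows : Matrix (Fin f.M.length) D.Idx F :=
  Matrix.of fun i a => if a = f.idxP hP i then (f.sgn i : F) else 0

/-- The form. -/
def bmat : Matrix (Fin f.M.length) (Fin f.M.length) F := Matrix.of fun i j => (f.form i j : F)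

/-- The restriction to the coordinates. -/
def res (x : Matrix D.Idx D.Idx F) : Matrix (Fin f.M.length) (Fin f.M.length) F :=
  Matrix.of fun k i => x (f.idxM hM k) (f.idxM hM i)

theorem mul_emb {ι : Type*} (x : Matrix ι D.Idx F) (a : ι) (i : Fin f.M.length) :
    (x * (f.emb (F := F) (D := D) hM) : Matrix ι (Fin f.M.length) F) a i = x a (f.idxM hM i) := by
  rw [Matrix.mul_apply, Finset.sum_eq_single_of_mem (f.idxM hM i) (Finset.mem_univ _)
    fun m _ hm => by rw [emb, Matrix.of_apply, if_neg hm, mul_zero], emb, Matrix.of_apply, if_pos rfl,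
    mul_one]

theorem rows_mul (x : Matrix D.Idx D.Idx F) (k : Fin f.M.length) (a : D.Idx) :
    ((f.rows (F := F) (D := D) hP) * x : Matrix (Fin f.M.length) D.Idx F) k a = (f.sgn k : F) * x (f.idxP hP k) a := by
  rw [Matrix.mul_apply, Finset.sum_eq_single_of_mem (f.idxP hP k) (Finset.mem_univ _)
    fun m _ hm => by rw [rows, Matrix.of_apply, if_neg hm, zero_mul], rows, Matrix.of_apply,
    if_pos rfl]

/-- Preservation of the family. -/
def Pres (x : Matrix D.Idx D.Idx F) : Prop :=
  x * (f.emb (F := F) (D := D) hM) = (f.emb (F := F) (D := D) hM) * f.res hM x ∧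
    (f.res hM x)ᵀ * (f.bmat (F := F)) * f.res hM x = (f.bmat (F := F)) ∧
    (f.res hM x)ᵀ * (f.rows (F := F) (D := D) hP) * x = (f.rows (F := F) (D := D) hP)

variable (hinj : Function.Injective (f.idxM hM (D := D)))

include hinj in
theorem emb_mul (X : Matrix (Fin f.M.length) (Fin f.M.length) F) (k i : Fin f.M.length) :
    ((f.emb (F := F) (D := D) hM) * X : Matrix D.Idx (Fin f.M.length) F) (f.idxM hM k) i = X k i := by
  rw [Matrix.mul_apply, Finset.sum_eq_single_of_mem k (Finset.mem_univ _)
    fun m _ hm => by rw [emb, Matrix.of_apply, if_neg fun e => hm (hinj e).symm, zero_mul], emb,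
    Matrix.of_apply, if_pos rfl, one_mul]

include hinj in
theorem pres_one : f.Pres hM hP (1 : Matrix D.Idx D.Idx F) := by
  have h1 : f.res hM (1 : Matrix D.Idx D.Idx F) = 1 := by
    funext k i
    simp only [res, Matrix.of_apply, Matrix.one_apply, hinj.eq_iff]
  refine ⟨by rw [h1, Matrix.one_mul, Matrix.mul_one], ?_, ?_⟩
  · rw [h1, Matrix.transpose_one, Matrix.one_mul, Matrix.mul_one]
  · rw [h1, Matrix.transpose_one, Matrix.one_mul, Matrix.mul_one]

include hinj in
theorem res_mul {x y : Matrix D.Idx D.Idx F} (hx : f.Pres hM hP x) (hy : f.Pres hM hP y) :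
    f.res hM (x * y) = f.res hM x * f.res hM y := by
  funext k i
  have e : x * y * (f.emb (F := F) (D := D) hM) = (f.emb (F := F) (D := D) hM) * (f.res hM x * f.res hM y) := by
    rw [Matrix.mul_assoc, hy.1, ← Matrix.mul_assoc, hx.1, Matrix.mul_assoc]
  calc f.res hM (x * y) k i = (x * y) (f.idxM hM k) (f.idxM hM i) := rfl
    _ = (x * y * (f.emb (F := F) (D := D) hM) : Matrix D.Idx (Fin f.M.length) F) (f.idxM hM k) i :=
        (f.mul_emb hM _ _ _).symm
    _ = _ := by rw [e, f.emb_mul hM hinj]

include hinj in
theorem pres_mul {x y : Matrix D.Idx D.Idx F} (hx : f.Pres hM hP x) (hy : f.Pres hM hP y) :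
    f.Pres hM hP (x * y) := by
  refine ⟨?_, ?_, ?_⟩ <;> rw [f.res_mul hM hP hinj hx hy]
  · rw [Matrix.mul_assoc, hy.1, ← Matrix.mul_assoc, hx.1, Matrix.mul_assoc]
  · rw [Matrix.transpose_mul, show (f.res hM y)ᵀ * (f.res hM x)ᵀ * (f.bmat (F := F)) *
        (f.res hM x * f.res hM y) = (f.res hM y)ᵀ * ((f.res hM x)ᵀ * (f.bmat (F := F)) * f.res hM x) *
          f.res hM y by simp only [Matrix.mul_assoc], hx.2.1, hy.2.1]
  · rw [Matrix.transpose_mul, show (f.res hM y)ᵀ * (f.res hM x)ᵀ * (f.rows (F := F) (D := D) hP) * (x * y) =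
        (f.res hM y)ᵀ * ((f.res hM x)ᵀ * (f.rows (F := F) (D := D) hP) * x) * y by simp only [Matrix.mul_assoc],
      hx.2.2, hy.2.2]

end Fam

/-- Soundness of the check of a generator. -/
theorem Fam.pres_gen (S : Sys D) (hrank : 0 < D.rank) (f : Fam)
    (hM : ∀ i : Fin f.M.length, f.root i < D.nroots)
    (hP : ∀ i : Fin f.M.length, f.row i < D.nroots)
    {r : ℕ} (hc : Fam.chkGen D f r = true) (t : F) :
    f.Pres hM hP (D.x F r t) ∧
      ∀ k i : Fin f.M.length, f.res hM (D.x F r t) k i = pev F t 0 (Fam.sub D f r k i) := by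
  simp only [Fam.chkGen, Bool.and_eq_true, List.all_eq_true, List.mem_range, decide_eq_true_eq,
    beq_iff_eq] at hc
  obtain ⟨hr, hall⟩ := hc
  have hres : ∀ k i : Fin f.M.length,
      f.res hM (D.x F r t) k i = pev F t 0 (Fam.sub D f r k i) :=
    fun k i => x_entry S.wf hr t _ _
  refine ⟨⟨?_, ?_, ?_⟩, hres⟩
  · funext a i
    rw [f.mul_emb hM]
    have h1 := congrArg (vev D F t 0) (hall i i.isLt).1.1
    rw [vev_normV, vev_normV] at h1
    have h2 : vev D F t 0 ((List.range f.M.length).flatMap fun k =>
        (Fam.sub D f r k i).map fun m => (D.rank + f.root k, m)) =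
        ∑ k : Fin f.M.length, pev F t 0 (Fam.sub D f r k i) • bv D F (D.rank + f.root k) := by
      rw [← Finset.sum_range fun k => pev F t 0 (Fam.sub D f r k i) • bv D F (D.rank + f.root k),
        ← List.toFinset_range, List.sum_toFinset _ List.nodup_range]
      induction List.range f.M.length with
      | nil => rfl
      | cons k L ih =>
        rw [List.flatMap_cons, vev_append, List.map_cons, List.sum_cons, ih]
        congr 1
        induction Fam.sub D f r k i with
        | nil => simp [vev, pev_nil]
        | cons m P ihP => rw [List.map_cons, vev_cons, ihP, pev_cons, add_smul]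
    have h3 : vev D F t 0 ((colTerms D r (D.rank + f.root i)).map fun q =>
        (q.1, q.2.1, q.2.2, 0)) = D.x F r t *ᵥ bv D F (D.rank + f.root i) := by
      rw [x_bv S.wf hr (by have := hM i; omega), vev, List.map_map]
      simp [Function.comp_def]
    rw [h3, h2] at h1
    have h4 := congrFun h1 a
    rw [show D.rank + f.root i = enc D (f.idxM hM i) from rfl, bv_single, Matrix.mulVec_single]
      at h4
    simp only [Finset.sum_apply, Pi.smul_apply, MulOpposite.op_one, one_smul, Matrix.col_apply]
      at h4
    rw [h4, Matrix.mul_apply]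
    refine Finset.sum_congr rfl fun k _ => ?_
    rw [show D.rank + f.root k = enc D (f.idxM hM k) from rfl, bv_single, Fam.emb, hres,
      Matrix.of_apply, Pi.single_apply, smul_eq_mul, mul_comm]
  · funext i j
    have h1 := polyEqB_sound (F := F) hrank ((hall i i.isLt).1.2 j j.isLt) t 0
    simp only [pev_range, pev_psmul, pev_pmul] at h1
    rw [Matrix.mul_apply]
    simp only [Matrix.mul_apply, Matrix.transpose_apply, hres, Finset.sum_mul]
    rw [Finset.sum_comm]
    simp only [pev_cons, pev_nil] at h1
    simp only [Fam.bmat, Matrix.of_apply]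
    rw [show ((f.form i j : ℤ) : F) = (f.form i j : F) * t ^ 0 * 0 ^ 0 + 0 by ring, ← h1]
    exact Finset.sum_congr rfl fun k _ => Finset.sum_congr rfl fun l _ => by ring
  · funext i a
    have henc : enc D a < D.rank + D.nroots := by
      rcases a with j | s
      · have := j.isLt; simp only [enc]; omega
      · have := s.isLt; simp only [enc]; omega
    have h1 := polyEqB_sound (F := F) hrank ((hall i i.isLt).2 _ henc) t 0
    simp only [pev_range, pev_psmul, pev_pmul] at h1
    rw [Matrix.mul_assoc, Matrix.mul_apply]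
    simp only [Matrix.transpose_apply, hres, f.rows_mul hP]
    have hx : ∀ k : Fin f.M.length, D.x F r t (f.idxP hP k) a =
        pev F t 0 (entryPoly D r (D.rank + f.row k) (enc D a)) := fun k => x_entry S.wf hr t _ _
    simp only [hx]
    have hiff : enc D a = D.rank + f.row i ↔ a = f.idxP hP i :=
      ⟨fun e => enc_injective D (e.trans rfl), fun e => by rw [e]; rfl⟩
    have h5 : f.rows (F := F) hP i a = pev F t 0
        [(if enc D a = D.rank + f.row i then f.sgn i else 0, 0, 0)] := by
      simp only [pev_cons, pev_nil, Fam.rows, Matrix.of_apply, hiff]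
      split_ifs <;> simp
    rw [h5, ← h1]
    exact Finset.sum_congr rfl fun k _ => by ring

end CfsgLib.OddInvol
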