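import Cfsg.Agent.Chevalley.Parabolic
import Cfsg.Agent.Chevalley.Support

/-!
Odd characteristic involutions in Chevalley groups, part 1: the filtration of the module by the
coefficient of one fundamental root is preserved by a parabolic subgroup, and the entries of
elements of the Borel subgroup.
-/

set_option autoImplicit false

namespace CfsgLib.OddInvol

open Cfsg.Lie CfsgLib.Chevalley
open scoped Matrix

variable {D : ChevalleyDatum} (S : Sys D) (F : Type*) [Field F]

/-- The coefficient of `p_o`, on the basis of the module. -/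
def lev (o : ℕ) : D.Idx → ℤ
  | Sum.inl _ => 0
  | Sum.inr s => S.vec o s

theorem lev_eq_deg (o : ℕ) (a : D.Idx) : lev S o a = S.deg {o} a := by
  rcases a with j | s <;> simp [lev, Sys.deg]

/-- The entries do not lower the level. -/
def LevelMono (o : ℕ) (g : Matrix D.Idx D.Idx F) : Prop :=
  ∀ row col, g row col ≠ 0 → lev S o col ≤ lev S o row

theorem levelMono_mul {o : ℕ} {g h : Matrix D.Idx D.Idx F} (hg : LevelMono S F o g)
    (hh : LevelMono S F o h) : LevelMono S F o (g * h) := by
  intro row col hne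
  rw [Matrix.mul_apply] at hne
  obtain ⟨m, -, hm⟩ := Finset.exists_ne_zero_of_sum_ne_zero hne
  exact (hh m col (right_ne_zero_of_mul hm)).trans (hg row m (left_ne_zero_of_mul hm))

theorem levelMono_tor (o : ℕ) (c : ℕ → Fˣ) :
    LevelMono S F o (tor D F c : Matrix D.Idx D.Idx F) := by
  intro row col hne
  by_contra h
  exact hne (S.tor_diag F c fun e => h (by rw [e]))

theorem levelMono_x {o r : ℕ} (ho : o < D.rank) (hr : r < D.nroots) (h : 0 ≤ S.vec o r) (t : F) :
    LevelMono S F o (D.x F r t) := by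
  intro row col hne
  rcases S.x_entry_deg F {o} (fun m hm => by rw [Finset.mem_singleton.mp hm]; exact ho) hr t hne
    with e | ⟨i, -, he⟩
  · rw [e]
  · rw [lev_eq_deg, lev_eq_deg, he, Finset.sum_singleton]
    have : 0 ≤ (i : ℤ) * S.vec o r := mul_nonneg (by omega) h
    omega

theorem levelMono_parabolic (hS : S.SupportEq) {J : Set ℕ} {o : ℕ} (ho : o < D.rank) (hoJ : o ∉ J)
    {g : GL D.Idx F} (hg : g ∈ D.parabolicSubgroup F J) :
    LevelMono S F o (g : Matrix D.Idx D.Idx F) := by
  rw [S.parabolic_eq_diag_closure F hS J, ← Subgroup.closure_eq (D.diagonalSubgroup F),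
    ← Subgroup.closure_union] at hg
  have hroot : ∀ r, (D.IsPosRoot r ∨ D.InRootSub J r) → r < D.nroots ∧ 0 ≤ S.vec o r := by
    rintro r (hr | hr)
    · obtain ⟨h1, h2⟩ := (S.pos_iff r).mp hr
      exact ⟨h2, S.vec_pos r h2 h1 o ho⟩
    · obtain ⟨h1, h2⟩ := (S.mem_inRootSub hS).mp hr
      exact ⟨h1, (h2 o ho hoJ).ge⟩
  induction hg using Subgroup.closure_induction'' with
  | mem y hy =>
    rcases hy with hy | ⟨r, t, hr, hy⟩
    · rw [SetLike.mem_coe, S.diagonal_eq] at hy
      obtain ⟨c, rfl⟩ := hy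
      exact levelMono_tor S F o c
    · rw [hy]; exact levelMono_x S F ho (hroot r hr).1 (hroot r hr).2 t
  | inv_mem y hy =>
    rcases hy with hy | ⟨r, t, hr, hy⟩
    · rw [SetLike.mem_coe, S.diagonal_eq] at hy
      obtain ⟨c, rfl⟩ := hy
      rw [← map_inv]
      exact levelMono_tor S F o c⁻¹
    · rw [S.eq_xG F hy, S.xG_inv, S.xG_val]
      exact levelMono_x S F ho (hroot r hr).1 (hroot r hr).2 (-t)
  | one =>
    intro row col hne
    by_contra h
    exact hne (by rw [Units.val_one, Matrix.one_apply_ne fun e => h (by rw [e])])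
  | mul a b _ _ ha hb =>
    rw [Units.val_mul]
    exact levelMono_mul S F ha hb

theorem levelMono_borel (hS : S.SupportEq) {o : ℕ} (ho : o < D.rank) {g : GL D.Idx F}
    (hg : g ∈ D.borelSubgroup F) : LevelMono S F o (g : Matrix D.Idx D.Idx F) :=
  levelMono_parabolic S F hS (J := ∅) ho (Set.notMem_empty o) (Subgroup.mem_sup_left hg)

include S in
theorem borel_diag_ne {g : GL D.Idx F} (hg : g ∈ D.borelSubgroup F) (a : D.Idx) :
    (g : Matrix D.Idx D.Idx F) a a ≠ 0 := by
  obtain ⟨u, hu, c, rfl⟩ := (S.mem_borel F).mp hg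
  have h1 : (u : Matrix D.Idx D.Idx F) a a = 1 := by
    by_contra h
    have := (S.posUnipotent_le F hu).1 a a (by
      rw [Matrix.sub_apply, Matrix.one_apply_eq]; exact sub_ne_zero.mpr h)
    omega
  rw [Units.val_mul, Matrix.mul_apply, Finset.sum_eq_single_of_mem a (Finset.mem_univ _)
    fun m _ hm => by rw [S.tor_diag F c hm, mul_zero], h1, one_mul, S.tor_val, dg,
    Matrix.diagonal_apply_eq]
  rcases a with j | s
  · exact one_ne_zero
  · exact Units.ne_zero _

/-- `s` is above `a` for the root order. -/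
def Above (s a : ℕ) : Prop := ∀ m < D.rank, S.vec m a ≤ S.vec m s

theorem above_of_borel (hS : S.SupportEq) {g : GL D.Idx F} (hg : g ∈ D.borelSubgroup F)
    {a b : Fin D.nroots} (h : (g : Matrix D.Idx D.Idx F) (Sum.inr a) (Sum.inr b) ≠ 0) :
    Above S (a : ℕ) (b : ℕ) :=
  fun _ hm => levelMono_borel S F hS hm hg _ _ h

theorem borel_inl_col_zero (hS : S.SupportEq) {g : GL D.Idx F} (hg : g ∈ D.borelSubgroup F)
    {j : Fin D.rank} {b : Fin D.nroots} (hb : D.nroots / 2 ≤ (b : ℕ)) :
    (g : Matrix D.Idx D.Idx F) (Sum.inl j) (Sum.inr b) = 0 := by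
  by_contra h
  obtain ⟨m, hm, hpos⟩ := S.exists_vec_pos b.isLt hb
  have := levelMono_borel S F hS hm hg _ _ h
  simp only [lev] at this
  omega

end CfsgLib.OddInvol
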