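import Cfsg.Agent.OddInvol.Reach

/-!
Part 9: in odd characteristic every involution is conjugate into the torus.
-/

set_option autoImplicit false

namespace CfsgLib.OddInvol

open Cfsg.Lie CfsgLib.Chevalley
open scoped Matrix

variable {D : ChevalleyDatum}

theorem exists_tor_of_borel (S : Sys D) (F : Type*) [Field F] [Finite F] (h2 : (2 : F) ≠ 0)
    {g : GL D.Idx F} (hg : g ∈ D.borelSubgroup F) (hgg : g * g = 1) :
    ∃ x ∈ D.borelSubgroup F, ∃ c, x * g * x⁻¹ = tor D F c := by
  classical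
  haveI := Fintype.ofFinite F
  obtain ⟨u, hu, c, rfl⟩ := (S.mem_borel F).mp hg
  have hT : ∀ d, tor D F d ∈ D.diagonalSubgroup F := fun d => by
    rw [S.diagonal_eq]; exact ⟨d, rfl⟩
  set t := tor D F c with ht
  have hu' : t * u * t⁻¹ ∈ D.posUnipotent F :=
    (Subgroup.mem_normalizer_iff.mp (S.diagonal_le_normalizer F (hT c)) u).mp hu
  have htt : t * t = 1 := by
    have h1 : (u * (t * u * t⁻¹))⁻¹ = t * t := by
      refine (eq_inv_of_mul_eq_one_right ?_).symm
      rw [← hgg]; group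
    have h2' : t * t ∈ D.posUnipotent F ⊓ D.diagonalSubgroup F :=
      ⟨(h1 ▸ Subgroup.inv_mem _ (Subgroup.mul_mem _ hu hu') : t * t ∈ D.posUnipotent F), Subgroup.mul_mem _ (hT c) (hT c)⟩
    rwa [S.posUnipotent_inf_diagonal F, Subgroup.mem_bot] at h2'
  have hinv : t * u * t⁻¹ = u⁻¹ := by
    refine eq_inv_of_mul_eq_one_right ?_
    have e : u * (t * u * t⁻¹) * (t * t) = 1 := by rw [← hgg]; group
    rwa [htt, mul_one] at e
  -- `u` has odd order
  have hodd : Odd (orderOf u) := by
    have h1 : orderOf (⟨u, hu⟩ : ↥(D.posUnipotent F)) ∣ Nat.card ↥(D.posUnipotent F) :=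
      orderOf_dvd_natCard _
    rw [Subgroup.orderOf_mk, ← uSub_univ, S.natCard_uSub F S.closed_univ] at h1
    refine Odd.of_dvd_nat (Odd.pow ?_) h1
    rw [← Nat.not_even_iff_odd, even_iff_two_dvd]
    intro hev
    obtain ⟨p, hp⟩ := CharP.exists F
    obtain ⟨n, hpp, hcard⟩ := FiniteField.card F p
    rw [hcard] at hev
    have h2p : 2 = p := (Nat.prime_dvd_prime_iff_eq Nat.prime_two hpp).mp
      (Nat.prime_two.dvd_of_dvd_pow hev)
    subst h2p
    exact h2 (CharP.cast_eq_zero F 2)
  set r := u ^ ((orderOf u + 1) / 2) with hr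
  have hrr : r * r = u := by
    rw [hr, ← pow_add, show (orderOf u + 1) / 2 + (orderOf u + 1) / 2 = orderOf u + 1 by
      obtain ⟨k, hk⟩ := hodd; omega, pow_succ, pow_orderOf_eq_one, one_mul]
  have hrt : t * r * t⁻¹ = r⁻¹ := by
    rw [hr, ← conj_pow, hinv, inv_pow]
  refine ⟨r⁻¹, inv_mem (Subgroup.mem_sup_left (pow_mem hu _)), c, ?_⟩
  rw [inv_inv]
  calc r⁻¹ * (u * t) * r = r⁻¹ * u * (t * r * t⁻¹) * t := by group
    _ = t := by rw [hrt, ← hrr]; group

variable {T : Tab}

/-- In odd characteristic every involution is conjugate into the torus. -/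
theorem exists_tor (h : Checked D T) (hS : h.sys.SupportEq) {certs : List (List ℕ × Cert)}
    (hc : chkCerts D T certs = true) (F : Type*) [Field F] [Finite F] (h2 : (2 : F) ≠ 0)
    {g : GL D.Idx F} (hg : g ∈ D.group F) (hgg : g * g = 1) :
    ∃ x ∈ D.group F, ∃ c, x * g * x⁻¹ = tor D F c := by
  classical
  set S := h.sys with hSdef
  obtain ⟨x, hx, k, hk, hmin⟩ := exists_isMinLen S F hg
  set g' := x * g * x⁻¹ with hg'
  have hgg' : g' * g' = 1 := by
    rw [hg', show x * g * x⁻¹ * (x * g * x⁻¹) = x * (g * g) * x⁻¹ by group, hgg]; group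
  obtain ⟨b, hb, n, c, hc', e, hcard⟩ := hk
  subst hcard
  have hsq := perm_mul_self S F hgg' hb hc' e
  set J : List ℕ := (List.range D.rank).filter fun i =>
    if hi : i < D.rank then decide ((S.perm F n (S.simpleF ⟨i, hi⟩) : ℕ) < D.nroots / 2) else false
    with hJ
  have hJiff : ∀ i : Fin D.rank, (i : ℕ) ∈ lset J ↔
      (S.perm F n (S.simpleF i) : ℕ) < D.nroots / 2 := by
    intro i
    simp [hJ, lset, i.isLt]
  have hneg : IsNegOn S n (lset J) := fun i =>
    ⟨fun hi => neg_simple_of_min S F hb hc' e hsq hmin i ((hJiff i).mp hi),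
      fun hi => not_lt.mp fun hlt => hi ((hJiff i).mpr hlt)⟩
  by_cases hJe : J = []
  · have hperm : S.perm F n = 1 := by
      obtain ⟨L, hL⟩ := S.exists_wperm F n
      rw [hL]
      refine S.wperm_eq_one F L fun s hs => ?_
      rw [← hL]
      by_contra hlt
      have h1 := (IsNegOn.flip_iff S hS hsq hneg s hs).mp (not_le.mp hlt)
      obtain ⟨j, hj, hjs⟩ := S.exists_vec_pos s.isLt hs
      have := ((S.mem_inRootSub hS).mp h1).2 j hj (by simp [lset, hJe])
      omega
    have hnH : n ∈ hSub D F := by rw [← S.ker_perm F, MonoidHom.mem_ker, hperm]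
    rw [hSub, Subgroup.mem_subgroupOf] at hnH
    have hgB : g' ∈ D.borelSubgroup F := by
      rw [e]; exact mul_mem (mul_mem hb (Subgroup.mem_sup_right hnH)) hc'
    obtain ⟨y, hy, d, hd⟩ := exists_tor_of_borel S F h2 hgB hgg'
    refine ⟨y * x, mul_mem (S.borel_le_group F hy) hx, d, ?_⟩
    rw [← hd, hg']; group
  exfalso
  have hsub : J ∈ (List.range D.rank).sublists := by
    rw [List.mem_sublists, hJ]; exact List.filter_sublist
  simp only [chkCerts, List.all_eq_true, Bool.or_eq_true, List.any_eq_true, Bool.and_eq_true,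
    decide_eq_true_eq, List.isEmpty_iff] at hc
  obtain ⟨⟨J', C⟩, -, hJ', hC⟩ := (hc J hsub).resolve_left hJe
  have hs : Setup h J g' n :=
    { hS := hS
      hJ := fun j hj => List.mem_range.mp (List.mem_filter.mp (hJ ▸ hj)).1
      hsq := hsq
      hneg := hneg
      cell := ⟨b, hb, c, hc', e⟩
      gg := hgg'
      min := hmin }
  cases C with
  | contra μ => exact contra_absurd h hs hC
  | two μ ν j c' => exact two_absurd h hs h2 hC
  | fam f => exact fam_absurd h hs h2 hC

end CfsgLib.OddInvol
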