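import Cfsg.Agent.OddInvol.Parity

/-!
Part 17: the check of the orbits of the Weyl group on the characters of order two.
-/

set_option autoImplicit false

namespace CfsgLib.OddInvol

open Cfsg.Lie CfsgLib.Chevalley

/-- Check: each entry `(e, i, k)` after the first is the image of the earlier entry `k` under the
fundamental reflection `i`. -/
def chkOrbit (D : ChevalleyDatum) (P : ParTab) (L : List (ℕ × ℕ × ℕ)) : Bool :=
  decide (0 < L.length) && (List.range L.length).all fun k =>
    decide ((L.getD k (0, 0, 0)).1 < 2 ^ D.rank) && (decide (k = 0) ||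
      (decide ((L.getD k (0, 0, 0)).2.2 < k) && decide ((L.getD k (0, 0, 0)).2.1 < D.rank) &&
        decide ((L.getD k (0, 0, 0)).1 = maskAt P D.rank
          (L.getD (L.getD k (0, 0, 0)).2.2 (0, 0, 0)).1
          ((List.range D.rank).map fun m =>
            D.reflectRoot (L.getD k (0, 0, 0)).2.1 (D.simple m)))))

/-- Check: two orbits covering every non-zero mask. -/
def chkOrbits (D : ChevalleyDatum) (P : ParTab) (A B : List (ℕ × ℕ × ℕ)) : Bool :=
  chkOrbit D P A && chkOrbit D P B && (List.range (2 ^ D.rank)).all fun e =>
    decide (e = 0) || (A.map Prod.fst).contains e || (B.map Prod.fst).contains e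

end CfsgLib.OddInvol
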