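import Cfsg.Agent.OddInvol.WeylSplit

/-!
Part 12: characters of order two of the root lattice as bit masks.
-/

set_option autoImplicit false

namespace CfsgLib.OddInvol

open Cfsg.Lie CfsgLib.Chevalley

variable {D : ChevalleyDatum}

/-- Tables: parities of the root coefficients (8 bits per root) and of the masks. -/
structure ParTab where
  /-- the parity mask of each root -/
  pm : ℕ
  /-- the parity of each mask -/
  par : ℕ

/-- The parity of the mask `e` on the root `r`. -/
def parB (P : ParTab) (e r : ℕ) : Bool :=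
  (P.par >>> (e &&& ((P.pm >>> (8 * r)) % 256))) % 2 == 1

/-- Check of the tables. -/
def chkPar (D : ChevalleyDatum) (T : Tab) (P : ParTab) : Bool :=
  (List.range (2 ^ D.rank)).all fun e => (List.range D.nroots).all fun r =>
    parB P e r == decide ((((List.range D.rank).map fun m =>
      if Nat.testBit e m then T.coord D.rank m r else 0).sum) % 2 = 1)

/-- The mask with the bits given by the parities at the listed roots. -/
def maskAt (P : ParTab) (l e : ℕ) (imgs : List ℕ) : ℕ :=
  Nat.ofBits fun m : Fin l => parB P e (imgs.getD m 0)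

/-- The character of the mask `e`, additively. -/
def cls (S : Sys D) (e : ℕ) (r : ℕ) : ZMod 2 :=
  ∑ m ∈ Finset.range D.rank, if Nat.testBit e m then (S.vec m r : ZMod 2) else 0

theorem cls_eq {T : Tab} (h : Checked D T) {P : ParTab} (hP : chkPar D T P = true) {e : ℕ}
    (he : e < 2 ^ D.rank) {r : ℕ} (hr : r < D.nroots) :
    cls h.sys e r = if parB P e r then 1 else 0 := by
  simp only [chkPar, List.all_eq_true, List.mem_range, beq_iff_eq] at hP
  rw [hP e he r hr]
  have hs : cls h.sys e r = ((((List.range D.rank).map fun m =>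
      if Nat.testBit e m then T.coord D.rank m r else 0).sum : ℤ) : ZMod 2) := by
    rw [← List.sum_toFinset _ List.nodup_range, List.toFinset_range, Int.cast_sum]
    refine Finset.sum_congr rfl fun m _ => ?_
    split_ifs
    · rfl
    · simp
  rw [hs]
  generalize ((List.range D.rank).map fun m =>
      if Nat.testBit e m then T.coord D.rank m r else 0).sum = z
  rcases Int.emod_two_eq_zero_or_one z with h0 | h0
  · rw [if_neg (by simp [h0]), ZMod.intCast_zmod_eq_zero_iff_dvd]
    exact Int.dvd_of_emod_eq_zero h0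
  · rw [if_pos (by simp [h0]), ← Int.cast_one, ZMod.intCast_eq_intCast_iff']
    exact h0

variable (S : Sys D)

theorem cls_simple {e k : ℕ} (hk : k < D.rank) :
    cls S e (D.simple k) = if Nat.testBit e k then 1 else 0 := by
  rw [cls, Finset.sum_eq_single_of_mem k (Finset.mem_range.mpr hk) fun m hm hne => by
    rw [S.vec_simple k hk m (Finset.mem_range.mp hm), if_neg hne]; simp]
  rw [S.vec_simple k hk k hk, if_pos rfl]
  simp

theorem mask_ext {e e' : ℕ} (he : e < 2 ^ D.rank) (he' : e' < 2 ^ D.rank)
    (h : ∀ r < D.nroots, cls S e r = cls S e' r) : e = e' := by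
  refine Nat.eq_of_testBit_eq fun i => ?_
  by_cases hi : i < D.rank
  · have h1 := h _ (S.wf.simple_lt i hi)
    rw [cls_simple S hi, cls_simple S hi] at h1
    cases h2 : Nat.testBit e i <;> cases h3 : Nat.testBit e' i <;>
      simp [h2, h3] at h1 ⊢
  · have hle : 2 ^ D.rank ≤ 2 ^ i := Nat.pow_le_pow_right (by norm_num) (by omega)
    rw [Nat.testBit_lt_two_pow (by omega), Nat.testBit_lt_two_pow (by omega)]

theorem cls_wperm (e : ℕ) (L : List (Fin D.rank)) (r : Fin D.nroots) :
    cls S e (S.wperm L r : ℕ) =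
      ∑ k : Fin D.rank, (S.vec k r : ZMod 2) * cls S e (S.wperm L (S.simpleF k) : ℕ) := by
  simp only [cls, Finset.mul_sum]
  rw [Finset.sum_comm]
  refine Finset.sum_congr rfl fun m hm => ?_
  rw [S.vec_wperm L r m (Finset.mem_range.mp hm)]
  split_ifs
  · simp
  · simp

theorem cls_maskAt {T : Tab} (h : Checked D T) {P : ParTab} (hP : chkPar D T P = true) {e : ℕ}
    (he : e < 2 ^ D.rank) (L : List (Fin D.rank)) (imgs : List ℕ)
    (hi : ∀ k : Fin D.rank, imgs.getD k 0 = (h.sys.wperm L (h.sys.simpleF k) : ℕ))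
    (r : Fin D.nroots) :
    cls h.sys e (h.sys.wperm L r : ℕ) = cls h.sys (maskAt P D.rank e imgs) r := by
  rw [cls_wperm, cls, Finset.sum_range]
  refine Finset.sum_congr rfl fun k _ => ?_
  rw [cls_eq h hP he (Fin.isLt _), maskAt, Nat.testBit_ofBits_lt _ _ k.isLt, hi]
  split_ifs <;> simp

theorem maskAt_lt (P : ParTab) (l e : ℕ) (imgs : List ℕ) : maskAt P l e imgs < 2 ^ l :=
  Nat.ofBits_lt_two_pow _

end CfsgLib.OddInvol
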