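import Cfsg.Agent.OddInvol.Cert

/-!
Part 5: the evaluation of the monomial sums used by the certificates.
-/

set_option autoImplicit false

namespace CfsgLib.OddInvol

open Cfsg.Lie CfsgLib.Chevalley
open scoped Matrix

variable {D : ChevalleyDatum} {F : Type*} [Field F]

theorem pev_cons (t u : F) (y : Mon) (P : List Mon) :
    pev F t u (y :: P) = (y.1 : F) * t ^ y.2.1 * u ^ y.2.2 + pev F t u P := by simp [pev]

theorem pev_nil (t u : F) : pev F t u [] = 0 := rfl

theorem pev_flatMap {ι : Type*} (t u : F) (L : List ι) (f : ι → List Mon) :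
    pev F t u (L.flatMap f) = (L.map fun i => pev F t u (f i)).sum := by
  induction L with
  | nil => rfl
  | cons i L ih =>
    simp only [List.flatMap_cons, List.map_cons, List.sum_cons, ← ih]
    simp [pev]

theorem pev_range (t u : F) (k : ℕ) (f : ℕ → List Mon) :
    pev F t u ((List.range k).flatMap f) = ∑ i : Fin k, pev F t u (f i) := by
  rw [pev_flatMap, ← List.sum_toFinset _ List.nodup_range, List.toFinset_range, Finset.sum_range]

theorem pev_psmul (t u : F) (a : ℤ) (P : List Mon) :
    pev F t u (psmul a P) = (a : F) * pev F t u P := by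
  induction P with
  | nil => simp [psmul, pev_nil]
  | cons y P ih =>
    rw [psmul, List.map_cons, ← psmul, pev_cons, pev_cons, ih]
    push_cast
    ring

theorem vev_scal (t u : F) (P : List Mon) : vev D F t u (scal P) = pev F t u P • bv D F 0 := by
  induction P with
  | nil => simp [scal, vev, pev_nil]
  | cons y P ih =>
    rw [scal, List.map_cons, ← scal, vev_cons, ih, pev_cons, add_smul]

theorem polyEqB_sound (hrank : 0 < D.rank) {P Q : List Mon} (h : polyEqB P Q = true) (t u : F) :
    pev F t u P = pev F t u Q := by
  rw [polyEqB, beq_iff_eq] at h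
  have h1 : vev D F t u (scal P) = vev D F t u (scal Q) := by
    rw [← vev_normV (D := D) (F := F) t u (scal P), h, vev_normV]
  have h2 := congrFun h1 (Sum.inl ⟨0, hrank⟩)
  rw [vev_scal, vev_scal, Pi.smul_apply, Pi.smul_apply,
    show bv D F 0 = Pi.single (Sum.inl ⟨0, hrank⟩) 1 from bv_inl D F ⟨0, hrank⟩] at h2
  simpa using h2

theorem sum_colTerms_apply (t : F) (L : List (ℕ × ℤ × ℕ)) (row : D.Idx) :
    ((L.map fun q => ((q.2.1 : F) * t ^ q.2.2) • bv D F q.1).sum) row =
      pev F t 0 ((L.filter fun q => q.1 == enc D row).map fun q => (q.2.1, q.2.2, 0)) := by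
  induction L with
  | nil => simp [pev_nil]
  | cons q L ih =>
    rw [List.map_cons, List.sum_cons, Pi.add_apply, ih, Pi.smul_apply, List.filter_cons]
    by_cases hq : q.1 = enc D row
    · rw [if_pos (by simpa using hq), List.map_cons, pev_cons, hq, bv_single, Pi.single_eq_same]
      simp
    · rw [if_neg (by simpa using hq), bv_apply_ne (Ne.symm hq), smul_zero, zero_add]

/-- The entries of a root element are the evaluations of `entryPoly`. -/
theorem x_entry (W : WellFormed D) {r : ℕ} (hr : r < D.nroots) (t : F) (row col : D.Idx) :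
    D.x F r t row col = pev F t 0 (entryPoly D r (enc D row) (enc D col)) := by
  have hc : enc D col < D.rank + D.nroots := by
    rcases col with j | s
    · have := j.isLt; simp only [enc]; omega
    · have := s.isLt; simp only [enc]; omega
  have h := congrFun (x_bv W hr hc t) row
  rw [bv_single, Matrix.mulVec_single, sum_colTerms_apply] at h
  simpa [entryPoly] using h

theorem unitB_ne_zero {a : ℤ} (h : unitB a = true) (h2 : (2 : F) ≠ 0) : (a : F) ≠ 0 := by
  have h4 : (4 : F) ≠ 0 := by
    rw [show (4 : F) = 2 * 2 by norm_num]; exact mul_ne_zero h2 h2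
  simp only [unitB, decide_eq_true_eq] at h
  rcases h with rfl | rfl | rfl | rfl | rfl | rfl <;> simp [h2, h4]

end CfsgLib.OddInvol
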