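import Cfsg.Agent.OddInvol.Family

/-!
Part 8: a common zero of the form and of the quadric attached to the involution moves to the first
basis vector, so a family certificate is contradictory.
-/

set_option autoImplicit false

namespace CfsgLib.OddInvol

open Cfsg.Lie CfsgLib.Chevalley
open scoped Matrix

variable {D : ChevalleyDatum} {F : Type*} [Field F]

/-- Two quadratic forms in enough variables have a common zero. -/
theorem exists_common_zero [Finite F] {k : ℕ} (A B : Matrix (Fin k) (Fin k) F)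
    (hk : 5 ≤ k ∨ (3 ≤ k ∧ B = 0)) :
    ∃ z : Fin k → F, z ≠ 0 ∧ dotProduct z (B *ᵥ z) = 0 ∧ dotProduct z (A *ᵥ z) = 0 := by
  classical
  haveI := Fintype.ofFinite F
  let Q : Matrix (Fin k) (Fin k) F → MvPolynomial (Fin k) F := fun M =>
    ∑ i, ∑ j, MvPolynomial.C (M i j) * (MvPolynomial.X i * MvPolynomial.X j)
  have hev : ∀ M z, MvPolynomial.eval z (Q M) = dotProduct z (M *ᵥ z) := by
    intro M z
    simp only [Q, map_sum, map_mul, MvPolynomial.eval_C, MvPolynomial.eval_X, dotProduct,
      Matrix.mulVec, Finset.mul_sum]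
    exact Finset.sum_congr rfl fun i _ => Finset.sum_congr rfl fun j _ => by ring
  have hdeg : ∀ M, (Q M).totalDegree ≤ 2 := by
    intro M
    refine MvPolynomial.totalDegree_finsetSum_le fun i _ => ?_
    refine MvPolynomial.totalDegree_finsetSum_le fun j _ => ?_
    refine le_trans (MvPolynomial.totalDegree_mul _ _) ?_
    rw [MvPolynomial.totalDegree_C, zero_add]
    exact le_trans (MvPolynomial.totalDegree_mul _ _)
      (by simp [MvPolynomial.totalDegree_X])
  have hdeg2 : (Q B).totalDegree + (Q A).totalDegree < Fintype.card (Fin k) := by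
    rw [Fintype.card_fin]
    rcases hk with hk | ⟨hk, hB⟩
    · have := hdeg A
      have := hdeg B
      omega
    · have : Q B = 0 := by simp [Q, hB]
      rw [this, MvPolynomial.totalDegree_zero]
      have := hdeg A
      omega
  haveI hp := ringChar.charP F
  haveI hpp : Fact (ringChar F).Prime := ⟨CharP.char_is_prime F _⟩
  have hdvd := char_dvd_card_solutions_of_add_lt (ringChar F) hdeg2
  have h0 : MvPolynomial.eval (0 : Fin k → F) (Q B) = 0 ∧
      MvPolynomial.eval (0 : Fin k → F) (Q A) = 0 := by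
    constructor <;> rw [hev] <;> simp
  have hlt : 1 < Fintype.card { x : Fin k → F //
      MvPolynomial.eval x (Q B) = 0 ∧ MvPolynomial.eval x (Q A) = 0 } := by
    have hpos : 0 < Fintype.card { x : Fin k → F //
        MvPolynomial.eval x (Q B) = 0 ∧ MvPolynomial.eval x (Q A) = 0 } :=
      Fintype.card_pos_iff.mpr ⟨⟨0, h0⟩⟩
    have := Nat.le_of_dvd hpos hdvd
    have := hpp.out.two_le
    omega
  obtain ⟨⟨z, hz⟩, hne⟩ := Fintype.exists_ne_of_one_lt_card hlt ⟨0, h0⟩
  refine ⟨z, fun e => hne (Subtype.ext e), ?_, ?_⟩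
  · rw [← hev]; exact hz.1
  · rw [← hev]; exact hz.2

theorem qf_congr {m k : Type*} [Fintype m] [Fintype k] (K : Matrix k m F) (M : Matrix k k F)
    (z : m → F) : dotProduct (K *ᵥ z) (M *ᵥ (K *ᵥ z)) = dotProduct z ((Kᵀ * M * K) *ᵥ z) := by
  rw [Matrix.mulVec_mulVec, Matrix.mul_assoc, ← Matrix.mulVec_mulVec z Kᵀ,
    Matrix.dotProduct_mulVec z Kᵀ, Matrix.vecMul_transpose]

theorem qf_at_zero {k : ℕ} (M : Matrix (Fin k) (Fin k) F) (z : Fin k → F) (i : Fin k)
    (hz : ∀ l, l ≠ i → z l = 0) : dotProduct z (M *ᵥ z) = z i * M i i * z i := by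
  rw [dotProduct, Finset.sum_eq_single_of_mem i (Finset.mem_univ _) fun l _ hl => by
    rw [hz l hl, zero_mul]]
  rw [Matrix.mulVec, dotProduct, Finset.sum_eq_single_of_mem i (Finset.mem_univ _) fun l _ hl => by
    rw [hz l hl, mul_zero], mul_assoc]

theorem qf_at_two {k : ℕ} (M : Matrix (Fin k) (Fin k) F) (z : Fin k → F) (i j : Fin k) (hij : i ≠ j)
    (hz : ∀ l, l ≠ i → l ≠ j → z l = 0) : dotProduct z (M *ᵥ z) =
      z i * (M i i * z i + M i j * z j) + z j * (M j i * z i + M j j * z j) := by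
  have hrow : ∀ a, (M *ᵥ z) a = M a i * z i + M a j * z j := fun a => by
    rw [Matrix.mulVec, dotProduct, Finset.sum_eq_add i j hij
      (fun c _ hc => by rw [hz c hc.1 hc.2, mul_zero]) (by simp) (by simp)]
  rw [dotProduct, Finset.sum_eq_add i j hij
    (fun c _ hc => by rw [hz c hc.1 hc.2, zero_mul]) (by simp) (by simp), hrow, hrow]

variable {T : Tab} (h : Checked D T) {J : List ℕ} {g : GL D.Idx F}
  {n : ↥(D.monomialSubgroup F)}

theorem wImg_cons (i : ℕ) (L : List ℕ) (r : ℕ) :
    wImg D (i :: L) r = D.reflectRoot i (wImg D L r) := rfl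

theorem fam_absurd [Finite F] (hs : Setup h J g n) (h2 : (2 : F) ≠ 0) {f : Fam}
    (hc : chkCert D T J (.fam f) = true) : False := by
  classical
  set S := h.sys with hSdef
  simp only [chkCert, Fam.chk, Bool.and_eq_true, Bool.or_eq_true, List.all_eq_true, List.mem_range,
    decide_eq_true_eq] at hc
  obtain ⟨⟨⟨⟨⟨⟨⟨⟨⟨hlen, hnd⟩, hMall⟩, hPall⟩, hcw⟩, hsgn⟩, hent⟩, hgens⟩, hmoves⟩, hsteps⟩ := hc
  have hM : ∀ i : Fin f.M.length, f.root i < D.nroots := fun i => by
    have := hMall _ (List.getElem_mem i.isLt)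
    simpa [Fam.root, List.getD_eq_getElem _ _ i.isLt] using this
  have hP : ∀ i : Fin f.M.length, f.row i < D.nroots := fun i => by
    have hi : (i : ℕ) < f.P.length := by rw [hlen]; exact i.isLt
    have := hPall _ (List.getElem_mem hi)
    rw [Fam.row, List.getD_eq_getElem _ _ hi]
    exact this
  have hinj : Function.Injective (f.idxM hM (D := D)) := fun i j e => by
    have e1 : f.root i = f.root j := congrArg Fin.val (Sum.inr.inj e)
    simp only [Fam.root, List.getD_eq_getElem _ _ i.isLt, List.getD_eq_getElem _ _ j.isLt] at e1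
    exact Fin.ext (hnd.getElem_inj_iff.mp e1)
  have hk3 : 3 ≤ f.M.length := by
    rcases hcw with h5 | h5
    · omega
    · exact h5.1
  set o : Fin f.M.length := ⟨0, by omega⟩ with ho
  have hent' := hent
  simp only [chkEntry, Bool.and_eq_true, decide_eq_true_eq] at hent'
  obtain ⟨⟨⟨⟨htop, -⟩, hbot⟩, -⟩, -⟩ := hent'
  have hrank : 0 < D.rank := by
    by_contra h0
    have h00 : D.rank = 0 := by omega
    obtain ⟨m, hm, -⟩ := S.exists_vec_pos (S.wf.neg_lt _ htop) (by
      rcases lt_or_ge (f.root 0) (D.nroots / 2) with h1 | h1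
      · exact S.root_lt_pos htop h1
      · obtain ⟨m, hm, -⟩ := S.exists_vec_pos htop h1
        omega)
    omega
  -- the group moving the family
  set K : Subgroup (GL D.Idx F) :=
    Subgroup.closure {x | ∃ r ∈ f.gens, ∃ t : F, x = S.xG F r t} with hK
  have hgenroot : ∀ r ∈ f.gens, D.InRootSub (lset J) r := by
    intro r hr
    obtain ⟨hg1, hg2⟩ := hgens r hr
    simp only [Fam.chkGen, Bool.and_eq_true, decide_eq_true_eq] at hg1
    rw [S.mem_inRootSub hs.hS]
    exact ⟨hg1.1, fun m hm hmJ => hg2 m (mem_outPos.mpr ⟨hm, hmJ⟩)⟩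
  have hKP : K ≤ D.parabolicSubgroup F (lset J) := by
    rw [hK, Subgroup.closure_le]
    rintro _ ⟨r, hr, t, rfl⟩
    exact S.xG_sub_mem_parabolic F hs.hS (hgenroot r hr) t
  have hgen : ∀ r ∈ f.gens, ∀ t : F, f.Pres hM hP (D.x F r t) ∧
      ∀ k i : Fin f.M.length, f.res hM (D.x F r t) k i = pev F t 0 (Fam.sub D f r k i) :=
    fun r hr t => Fam.pres_gen S hrank f hM hP (hgens r hr).1 t
  have hKpres : ∀ x ∈ K, f.Pres hM hP (x : Matrix D.Idx D.Idx F) := by
    intro x hx
    induction hx using Subgroup.closure_induction'' with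
    | mem y hy =>
      obtain ⟨r, hr, t, rfl⟩ := hy
      rw [S.xG_val]; exact (hgen r hr t).1
    | inv_mem y hy =>
      obtain ⟨r, hr, t, rfl⟩ := hy
      rw [S.xG_inv, S.xG_val]; exact (hgen r hr _).1
    | one => rw [Units.val_one]; exact f.pres_one hM hP hinj
    | mul a b _ _ ha hb => rw [Units.val_mul]; exact f.pres_mul hM hP hinj ha hb
  set B := f.bmat (F := F) with hB
  -- the elimination
  have elim : ∀ (L : List (ℕ × ℕ × ℤ)) (z : List ℕ), Fam.chkSteps D f L z = true →
      ∀ Z : Fin f.M.length → F, dotProduct Z (B *ᵥ Z) = 0 → Z o ≠ 0 →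
        (∀ i : Fin f.M.length, (i : ℕ) ∈ z → Z i = 0) →
        ∃ x ∈ K, (f.res hM (x : Matrix D.Idx D.Idx F) *ᵥ Z) o ≠ 0 ∧
          ∀ l, l ≠ o → (f.res hM (x : Matrix D.Idx D.Idx F) *ᵥ Z) l = 0 := by
    intro L
    induction L with
    | nil =>
      intro z hz Z hQ hZ0 hzero
      simp only [Fam.chkSteps, List.all_eq_true, List.mem_range, Bool.or_eq_true, beq_iff_eq,
        List.contains_iff_mem, Bool.and_eq_true, decide_eq_true_eq] at hz
      have hone : f.res hM ((1 : GL D.Idx F) : Matrix D.Idx D.Idx F) = 1 := by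
        funext k i
        simp only [Fam.res, Units.val_one, Matrix.of_apply, Matrix.one_apply, hinj.eq_iff]
      refine ⟨1, one_mem _, ?_, fun l hl => ?_⟩
      · rw [hone, Matrix.one_mulVec]; exact hZ0
      rw [hone, Matrix.one_mulVec]
      rcases hz l l.isLt with (h1 | h1) | ⟨⟨⟨h1, h00⟩, hll⟩, hu⟩
      · exact absurd (Fin.ext h1) hl
      · exact hzero l h1
      · have hothers : ∀ m, m ≠ o → m ≠ l → Z m = 0 := by
          intro m hm0 hml
          rcases hz m m.isLt with (h3 | h3) | ⟨⟨⟨h3, -⟩, -⟩, -⟩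
          · exact absurd (Fin.ext h3) hm0
          · exact hzero m h3
          · rw [h1] at h3
            exact absurd (Fin.ext (Option.some.inj h3).symm) hml
        rw [qf_at_two B Z o l (Ne.symm hl) hothers] at hQ
        have e00 : B o o = 0 := by simp [hB, Fam.bmat, ho, h00]
        have ell : B l l = 0 := by simp [hB, Fam.bmat, hll]
        have he : (B o l + B l o) ≠ 0 := by
          have := unitB_ne_zero (F := F) hu h2
          simpa [hB, Fam.bmat, ho] using this
        rw [e00, ell] at hQ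
        have : (B o l + B l o) * (Z o * Z l) = 0 := by linear_combination hQ
        exact (mul_eq_zero.mp ((mul_eq_zero.mp this).resolve_left he)).resolve_left hZ0
    | cons e L ih =>
      intro z hz Z hQ hZ0 hzero
      simp only [Fam.chkSteps, Fam.chkStep, Bool.and_eq_true, List.all_eq_true, List.mem_range,
        Bool.or_eq_true, decide_eq_true_eq, List.contains_iff_mem, Bool.not_eq_true',
        decide_eq_false_iff_not] at hz
      obtain ⟨⟨⟨⟨⟨⟨hr, hi⟩, hi0⟩, hiz⟩, hu⟩, hpoly⟩, hrest⟩ := hz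
      set i : Fin f.M.length := ⟨e.2.1, hi⟩ with hidef
      have hc0 : (e.2.2 : F) ≠ 0 := unitB_ne_zero hu h2
      set t := -Z i / ((e.2.2 : F) * Z o) with ht
      obtain ⟨hp, hres⟩ := hgen e.1 hr t
      set R := f.res hM (D.x F e.1 t)
      set Z' := R *ᵥ Z with hZ'
      have hrow : ∀ k : Fin f.M.length, (k : ℕ) ∈ 0 :: e.2.1 :: z →
          Z' k = Z k + (if k = i then (e.2.2 : F) * t * Z o else 0) := by
        intro k hk
        have hterm : ∀ l : Fin f.M.length, R k l * Z l =
            (if k = l then Z l else 0) +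
              (if k = i ∧ l = o then (e.2.2 : F) * t * Z l else 0) := by
          intro l
          rcases hpoly _ hk l l.isLt with h3 | h3
          · rw [hzero l h3]; simp
          · rw [hres k l, polyEqB_sound hrank h3, pev_cons, pev_cons, pev_nil]
            have e1 : ((k : ℕ) = (l : ℕ)) ↔ k = l := Fin.val_inj
            have e2 : ((k : ℕ) = e.2.1 ∧ (l : ℕ) = 0) ↔ (k = i ∧ l = o) := by
              simp [hidef, ho, Fin.ext_iff]
            simp only [e1, e2]
            split_ifs <;> simp <;> ring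
        simp only [hZ', Matrix.mulVec, dotProduct, hterm, Finset.sum_add_distrib,
          Finset.sum_ite_eq, Finset.mem_univ, if_true]
        congr 1
        by_cases hki : k = i
        · rw [if_pos hki]
          simp [hki]
        · simp [hki]
      have hio : o ≠ i := fun e' => hi0 (congrArg Fin.val e').symm
      have hQ' : dotProduct Z' (B *ᵥ Z') = 0 := by rw [hZ', qf_congr, hp.2.1]; exact hQ
      have hZ0' : Z' o ≠ 0 := by
        rw [hrow o List.mem_cons_self, if_neg hio, add_zero]; exact hZ0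
      have hzero' : ∀ j : Fin f.M.length, (j : ℕ) ∈ e.2.1 :: z → Z' j = 0 := by
        intro j hj
        rw [hrow j (List.mem_cons_of_mem _ hj)]
        rcases List.mem_cons.mp hj with h3 | h3
        · have hji : j = i := Fin.ext h3
          rw [if_pos hji, hji, ht]
          field_simp
          ring
        · rw [hzero j h3, if_neg fun e' => (by simpa using hiz : e.2.1 ∉ z) (by
            rw [← show ((j : ℕ)) = e.2.1 from congrArg Fin.val e']; exact h3),
            add_zero]
      obtain ⟨x, hx, hx1, hx2⟩ := ih _ hrest Z' hQ' hZ0' hzero'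
      have hmem : S.xG F e.1 t ∈ K := Subgroup.subset_closure ⟨e.1, hr, t, rfl⟩
      refine ⟨x * S.xG F e.1 t, mul_mem hx hmem, ?_⟩
      rw [Units.val_mul, f.res_mul hM hP hinj (hKpres x hx) (hKpres _ hmem), ← Matrix.mulVec_mulVec,
        S.xG_val]
      exact ⟨hx1, hx2⟩
  -- the common zero
  set A := f.rows (F := F) (D := D) hP * (g : Matrix D.Idx D.Idx F) * f.emb (F := F) (D := D) hM
    with hA
  obtain ⟨Z, hZ, hQ, hf⟩ := exists_common_zero A B (by
    rcases hcw with h5 | ⟨h3, h0⟩
    · exact Or.inl h5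
    · refine Or.inr ⟨h3, ?_⟩
      funext i j
      simp [hB, Fam.bmat, h0 i i.isLt j j.isLt])
  -- a Weyl move
  have move : ∃ x ∈ K, (f.res hM (x : Matrix D.Idx D.Idx F) *ᵥ Z) o ≠ 0 := by
    obtain ⟨i, hi, L, hL⟩ : ∃ i : Fin f.M.length, Z i ≠ 0 ∧ ∃ L, f.moves.getD i none = some L := by
      by_contra hcon
      push Not at hcon
      obtain ⟨i, hi⟩ := Function.ne_iff.mp hZ
      have h3 := hmoves i i.isLt
      rcases hmv : f.moves.getD i none with _ | L
      · rw [hmv] at h3
        simp only [Bool.and_eq_true, List.all_eq_true, List.mem_range, Bool.or_eq_true,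
          beq_iff_eq] at h3
        rw [qf_at_zero B Z i fun l hl => ?_] at hQ
        · have hb := unitB_ne_zero (F := F) h3.1 h2
          simp only [hB, Fam.bmat, Matrix.of_apply, mul_eq_zero] at hQ
          rcases hQ with (h4 | h4) | h4
          · exact hi h4
          · exact hb h4
          · exact hi h4
        · by_contra hl'
          rcases h3.2 l l.isLt with h4 | h4
          · exact hl (Fin.ext h4)
          · rw [Option.isSome_iff_exists] at h4
            obtain ⟨L, hL⟩ := h4
            exact hcon l hl' L hL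
      · exact hcon i hi L hmv
    have h3 := hmoves i i.isLt
    rw [hL] at h3
    simp only [Fam.chkMove, Bool.and_eq_true, List.all_eq_true, List.mem_range, decide_eq_true_eq,
      List.contains_iff_mem] at h3
    obtain ⟨hLok, hLimg⟩ := h3
    have word : ∀ L : List ℕ, (∀ j ∈ L, (j < D.rank ∧ D.simple j ∈ f.gens) ∧
        D.neg (D.simple j) ∈ f.gens) →
        ∃ x ∈ K, ∀ s < D.nroots, ∃ ε : F, ε ≠ 0 ∧ wImg D L s < D.nroots ∧
          (x : Matrix D.Idx D.Idx F) *ᵥ bv D F (D.rank + s) =
            ε • bv D F (D.rank + wImg D L s) := by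
      intro L
      induction L with
      | nil => exact fun _ => ⟨1, one_mem _, fun s hs' => ⟨1, one_ne_zero, hs', by
          simp [wImg]⟩⟩
      | cons j L ihL =>
        intro hj
        rw [List.forall_mem_cons] at hj
        obtain ⟨x, hx, hxs⟩ := ihL hj.2
        obtain ⟨⟨hjr, hj1⟩, hj2⟩ := hj.1
        have hn : S.nG F (D.simple j) 1 ∈ K := by
          rw [S.nG_eq]
          exact mul_mem (mul_mem (Subgroup.subset_closure ⟨_, hj1, _, rfl⟩)
            (Subgroup.subset_closure ⟨_, hj2, _, rfl⟩)) (Subgroup.subset_closure ⟨_, hj1, _, rfl⟩)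
        refine ⟨S.nG F (D.simple j) 1 * x, mul_mem hn hx, fun s hs' => ?_⟩
        obtain ⟨ε, hε, hlt, e⟩ := hxs s hs'
        refine ⟨ε * (S.eta j (wImg D L s) : F), mul_ne_zero hε
          (left_ne_zero_of_mul_eq_one (S.eta_cast F hjr hlt)), S.w_lt j hjr _ hlt, ?_⟩
        rw [Units.val_mul, ← Matrix.mulVec_mulVec, e, Matrix.mulVec_smul, S.nG_val,
          S.n_bv F hjr hlt, smul_smul, wImg_cons]
    obtain ⟨x, hx, hxs⟩ := word L hLok
    refine ⟨x, hx, ?_⟩
    have hentry : ∀ l : Fin f.M.length, ∃ ε : F, ε ≠ 0 ∧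
        f.res hM (x : Matrix D.Idx D.Idx F) o l = if l = i then ε else 0 := by
      intro l
      obtain ⟨ε, hε, hlt, e⟩ := hxs (f.root l) (hM l)
      refine ⟨ε, hε, ?_⟩
      have e' := congrFun e (f.idxM hM o)
      rw [show D.rank + f.root l = enc D (f.idxM hM l) from rfl, bv_single,
        Matrix.mulVec_single] at e'
      simp only [MulOpposite.op_one, one_smul, Matrix.col_apply, Pi.smul_apply, smul_eq_mul] at e'
      rw [Fam.res, Matrix.of_apply, e', Fam.idxM, bv_inr_apply]
      have : (f.root o = wImg D L (f.root l)) ↔ l = i :=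
        ⟨fun h5 => Fin.ext ((hLimg l l.isLt).mp h5.symm),
          fun h5 => ((hLimg l l.isLt).mpr (congrArg Fin.val h5)).symm⟩
      simp only [this]
      split_ifs <;> simp
    obtain ⟨ε, hε, he⟩ := hentry i
    rw [if_pos rfl] at he
    rw [Matrix.mulVec, dotProduct, Finset.sum_eq_single_of_mem i (Finset.mem_univ _) fun l _ hl => by
      obtain ⟨ε', -, he'⟩ := hentry l
      rw [he', if_neg hl, zero_mul], he]
    exact mul_ne_zero hε hi
  obtain ⟨x, hx, hx0⟩ := move
  obtain ⟨y, hy, hy0, hy1⟩ := elim _ [] hsteps (f.res hM (x : Matrix D.Idx D.Idx F) *ᵥ Z)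
    (by rw [qf_congr, (hKpres x hx).2.1]; exact hQ) hx0 (fun i hi => by cases hi)
  set k := y * x with hkdef
  have hkK : k ∈ K := mul_mem hy hx
  set R := f.res hM (k : Matrix D.Idx D.Idx F) with hR
  set Z' := R *ᵥ Z with hZ'
  have hk1 : ∀ l, l ≠ o → Z' l = 0 := fun l hl => by
    rw [hZ', hR, hkdef, Units.val_mul, f.res_mul hM hP hinj (hKpres y hy) (hKpres x hx),
      ← Matrix.mulVec_mulVec]
    exact hy1 l hl
  have hk0 : Z' o ≠ 0 := by
    rw [hZ', hR, hkdef, Units.val_mul, f.res_mul hM hP hinj (hKpres y hy) (hKpres x hx),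
      ← Matrix.mulVec_mulVec]
    exact hy0
  obtain ⟨hE, -, hRk⟩ := hKpres k hkK
  set G' := ((k * g * k⁻¹ : GL D.Idx F) : Matrix D.Idx D.Idx F) with hG'
  have hzero : dotProduct Z' ((f.rows (F := F) (D := D) hP * G' * f.emb (F := F) (D := D) hM) *ᵥ Z')
      = 0 := by
    rw [hZ', qf_congr]
    have e1 : Rᵀ * (f.rows (F := F) (D := D) hP * G' * f.emb (F := F) (D := D) hM) * R = A := by
      rw [hA, hG', Units.val_mul, Units.val_mul,
        show Rᵀ * (f.rows (F := F) (D := D) hP * ((k : Matrix D.Idx D.Idx F) *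
          (g : Matrix D.Idx D.Idx F) * ((k⁻¹ : GL D.Idx F) : Matrix D.Idx D.Idx F)) *
          f.emb (F := F) (D := D) hM) * R = (Rᵀ * f.rows (F := F) (D := D) hP *
          (k : Matrix D.Idx D.Idx F)) * (g : Matrix D.Idx D.Idx F) *
          (((k⁻¹ : GL D.Idx F) : Matrix D.Idx D.Idx F) * (f.emb (F := F) (D := D) hM * R)) by
          simp only [Matrix.mul_assoc],
        hRk, ← hE, ← Matrix.mul_assoc ((k⁻¹ : GL D.Idx F) : Matrix D.Idx D.Idx F), ← Units.val_mul,
        inv_mul_cancel, Units.val_one, Matrix.one_mul]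
    rw [e1]
    exact hf
  rw [qf_at_zero _ Z' o hk1, f.mul_emb hM, f.rows_mul hP] at hzero
  refine Setup.conj_entry_ne h hs (top := ⟨f.root 0, htop⟩) (bot := ⟨f.row 0, hbot⟩) hent
    (hKP hkK) ?_
  have hs0 : (f.sgn 0 : F) ≠ 0 := unitB_ne_zero hsgn h2
  rcases mul_eq_zero.mp hzero with h5 | h5
  · rcases mul_eq_zero.mp h5 with h6 | h6
    · exact absurd h6 hk0
    · exact (mul_eq_zero.mp h6).resolve_left hs0
  · exact absurd h5 hk0

end CfsgLib.OddInvol
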