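import Cfsg.Agent.OddInvol.Levels
import Cfsg.Agent.Chevalley.HighRoot

/-!
Part 2: an involution is conjugate to an element of a cell `B n B` where `w = n H` acts as `-1` on
a set `J` of fundamental roots and keeps the other fundamental roots positive, with the length of
`w` minimal over the conjugates.
-/

set_option autoImplicit false

namespace CfsgLib.OddInvol

open Cfsg.Lie CfsgLib.Chevalley
open scoped Matrix Pointwise

variable {D : ChevalleyDatum} (S : Sys D) (F : Type*) [Field F]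

/-- `g` lies in a cell of length `k`. -/
def HasLen (g : GL D.Idx F) (k : ℕ) : Prop :=
  ∃ b ∈ D.borelSubgroup F, ∃ n : ↥(D.monomialSubgroup F), ∃ c ∈ D.borelSubgroup F,
    g = b * (n : GL D.Idx F) * c ∧ (invSet (S.perm F n)).card = k

/-- The length of the cell of `g` is minimal over the conjugates of `g`. -/
def IsMinLen (g : GL D.Idx F) (k : ℕ) : Prop :=
  HasLen S F g k ∧ ∀ x ∈ D.group F, ∀ k', HasLen S F (x * g * x⁻¹) k' → k ≤ k'

theorem exists_hasLen {g : GL D.Idx F} (hg : g ∈ D.group F) : ∃ k, HasLen S F g k := by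
  obtain ⟨a, ha, n, hn, c, hc, e⟩ := S.exists_bruhat F hg
  exact ⟨_, a, ha, ⟨n, hn⟩, c, hc, e, rfl⟩

theorem exists_isMinLen {g : GL D.Idx F} (hg : g ∈ D.group F) :
    ∃ x ∈ D.group F, ∃ k, IsMinLen S F (x * g * x⁻¹) k := by
  classical
  have hex : ∃ k, ∃ x ∈ D.group F, HasLen S F (x * g * x⁻¹) k := by
    obtain ⟨k, hk⟩ := exists_hasLen S F hg
    exact ⟨k, 1, one_mem _, by simpa using hk⟩
  obtain ⟨x, hx, hk⟩ := Nat.find_spec hex
  refine ⟨x, hx, _, hk, fun y hy k' hk' => Nat.find_min' hex ⟨y * x, mul_mem hy hx, ?_⟩⟩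
  simpa [mul_assoc] using hk'

theorem perm_mul_self {g : GL D.Idx F} (h2 : g * g = 1) {b c : GL D.Idx F}
    {n : ↥(D.monomialSubgroup F)} (hb : b ∈ D.borelSubgroup F) (hc : c ∈ D.borelSubgroup F)
    (e : g = b * (n : GL D.Idx F) * c) : S.perm F n * S.perm F n = 1 := by
  have e' : b * (n : GL D.Idx F) * c = c⁻¹ * ((n⁻¹ : ↥(D.monomialSubgroup F)) : GL D.Idx F) * b⁻¹ := by
    rw [Subgroup.coe_inv, ← e, eq_comm]
    calc c⁻¹ * (n : GL D.Idx F)⁻¹ * b⁻¹ = (b * (n : GL D.Idx F) * c)⁻¹ := by group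
      _ = g := by rw [← e]; exact inv_eq_of_mul_eq_one_right h2
  have h := S.bruhat_unique F hb hc (inv_mem hc) (inv_mem hb) n.2 (n⁻¹).2 e'
  have h' : S.perm F n = S.perm F n⁻¹ := (S.perm_eq_iff F).mpr h
  rw [map_inv] at h'
  exact mul_eq_one_iff_eq_inv.mpr h'

/-- The Springer reduction. -/
theorem neg_simple_of_min {g : GL D.Idx F} {b c : GL D.Idx F}
    {n : ↥(D.monomialSubgroup F)} (hb : b ∈ D.borelSubgroup F) (hc : c ∈ D.borelSubgroup F)
    (e : g = b * (n : GL D.Idx F) * c) (hsq : S.perm F n * S.perm F n = 1)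
    (hmin : ∀ x ∈ D.group F, ∀ k', HasLen S F (x * g * x⁻¹) k' →
      (invSet (S.perm F n)).card ≤ k')
    (i : Fin D.rank) (hneg : (S.perm F n (S.simpleF i) : ℕ) < D.nroots / 2) :
    S.perm F n (S.simpleF i) = S.negF (S.simpleF i) := by
  by_contra hne
  set w := S.perm F n with hw
  have hww : ∀ s, w (w s) = s := fun s => by rw [← Equiv.Perm.mul_apply, hsq]; rfl
  set ni := S.nN F i with hni
  set m := ni * n with hm
  have hpm : S.perm F m = S.srefl i * w := by rw [hm, map_mul, S.perm_nN]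
  have hneg' : (S.negF (w (S.simpleF i)) : ℕ) ≥ D.nroots / 2 :=
    S.root_lt_pos (Fin.isLt _) hneg
  have hne2 : S.negF (w (S.simpleF i)) ≠ S.simpleF i := fun h => hne (by
    rw [← S.negF_negF (w (S.simpleF i)), h])
  -- `m` has length one less than `n`
  have hlen : (invSet w).card = (invSet (S.perm F m)).card + 1 := by
    classical
    have hmem : S.negF (w (S.simpleF i)) ∈ invSet w := by
      rw [mem_invSet]
      refine ⟨hneg', ?_⟩
      rw [hw, S.perm_negF, ← hw, hww]
      exact S.lt_half_negF.mpr (S.simple_pos i i.isLt)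
    have e2 : invSet (S.perm F m) = (invSet w).erase (S.negF (w (S.simpleF i))) := by
      ext s
      simp only [mem_invSet, Finset.mem_erase, hpm, Equiv.Perm.mul_apply]
      constructor
      · rintro ⟨h1, h2⟩
        refine ⟨fun hs => ?_, h1, ?_⟩
        · rw [hs, hw, S.perm_negF, ← hw, hww, S.srefl_negF, S.srefl_simple, S.negF_negF] at h2
          have := S.simple_pos i i.isLt
          simp only [Sys.simpleF] at h2
          omega
        · by_contra h3
          rcases eq_or_ne (w s) (S.simpleF i) with h4 | h4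
          · have : s = w (S.simpleF i) := by rw [← h4, hww]
            rw [this] at h1
            omega
          · have := S.srefl_pos i (s := w s) (by omega) h4
            omega
      · rintro ⟨hs, h1, h2⟩
        refine ⟨h1, ?_⟩
        by_contra h3
        have h4 : S.srefl i (w s) ≠ S.simpleF i := by
          intro h5
          apply hs
          have h6 : w s = S.negF (S.simpleF i) := by
            rw [← S.srefl_simple i, ← h5, ← Equiv.Perm.mul_apply, S.srefl_mul_self]; rfl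
          calc s = w (w s) := (hww s).symm
            _ = S.negF (w (S.simpleF i)) := by rw [h6, hw, S.perm_negF]
        have h7 := S.srefl_pos i (s := S.srefl i (w s)) (by omega) h4
        rw [← Equiv.Perm.mul_apply (S.srefl i), S.srefl_mul_self, Equiv.Perm.one_apply] at h7
        omega
    rw [e2, Finset.card_erase_of_mem hmem]
    have := Finset.card_pos.mpr ⟨_, hmem⟩
    omega
  -- `m` sends `p_i` to a negative root
  have hmi : (S.perm F m (S.simpleF i) : ℕ) < D.nroots / 2 := by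
    rw [hpm, Equiv.Perm.mul_apply]
    by_contra h3
    have h7 := S.srefl_pos i (s := S.negF (w (S.simpleF i))) hneg' hne2
    rw [S.srefl_negF] at h7
    have := S.lt_half_negF.mpr (not_lt.mp h3)
    omega
  have hlen2 : (invSet (S.perm F (m * ni))).card + 1 = (invSet (S.perm F m)).card := by
    have h := S.card_inv_mul_srefl (σ := S.perm F (m * ni)) i (S.perm_negF F _) (by
      rw [map_mul, hni, S.perm_nN, Equiv.Perm.mul_apply, S.srefl_simple, S.perm_negF]
      exact S.root_lt_pos (Fin.isLt _) hmi)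
    rw [map_mul, hni, S.perm_nN, mul_assoc, S.srefl_mul_self, mul_one] at h
    rw [map_mul, hni, S.perm_nN]
    omega
  -- the conjugate by `b n_i⁻¹`
  set x : GL D.Idx F := ((ni : GL D.Idx F)) * b⁻¹
  have hx : x ∈ D.group F :=
    mul_mem (S.monomial_le_group F ni.2) (inv_mem (S.borel_le_group F hb))
  have hg' : x * g * x⁻¹ = (m : GL D.Idx F) * (c * b) * (ni : GL D.Idx F)⁻¹ := by
    simp only [x, e, hm, Subgroup.coe_mul]
    group
  obtain ⟨a, ha, d, hd, h⟩ := S.n_borel_n_union F i m⁻¹ (inv_mem (mul_mem hc hb))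
  have hcases : ∀ y : ↥(D.monomialSubgroup F),
      S.nG F (D.simple i) 1 * (c * b)⁻¹ * ((m⁻¹ : ↥(D.monomialSubgroup F)) : GL D.Idx F) =
        a * (y : GL D.Idx F) * d → HasLen S F (x * g * x⁻¹) (invSet (S.perm F y⁻¹)).card := by
    intro y hy
    refine ⟨d⁻¹, inv_mem hd, y⁻¹, a⁻¹, inv_mem ha, ?_, rfl⟩
    have e3 := congrArg (fun z => z⁻¹) hy
    simp only [mul_inv_rev, inv_inv, Subgroup.coe_inv] at e3
    rw [hg', Subgroup.coe_inv, show (ni : GL D.Idx F) = S.nG F (D.simple i) 1 from rfl, mul_assoc,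
      mul_assoc]
    simpa [mul_assoc] using e3
  rcases h with h | h
  · have := hmin x hx _ (hcases (ni * m⁻¹) (by simpa [hni, Sys.nN] using h))
    rw [mul_inv_rev, inv_inv] at this
    have hp : S.perm F (m * ni⁻¹) = S.perm F (m * ni) := by
      rw [(S.perm F).map_mul m ni⁻¹, (S.perm F).map_mul m ni, map_inv, hni, S.perm_nN,
        inv_eq_of_mul_eq_one_right (S.srefl_mul_self i)]
    rw [hp] at this
    omega
  · have := hmin x hx _ (hcases m⁻¹ h)
    rw [inv_inv] at this
    omega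

variable {F}

/-- `n` acts as `-1` on `J` and keeps the other fundamental roots positive. -/
def IsNegOn (n : ↥(D.monomialSubgroup F)) (J : Set ℕ) : Prop :=
  ∀ i : Fin D.rank, ((i : ℕ) ∈ J → S.perm F n (S.simpleF i) = S.negF (S.simpleF i)) ∧
    ((i : ℕ) ∉ J → D.nroots / 2 ≤ (S.perm F n (S.simpleF i) : ℕ))

theorem vec_perm_sum (n : ↥(D.monomialSubgroup F)) (s : Fin D.nroots) (j : ℕ) (hj : j < D.rank) :
    S.vec j (S.perm F n s) = ∑ m : Fin D.rank, S.vec m s * S.vec j (S.perm F n (S.simpleF m)) := by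
  obtain ⟨L, hL⟩ := S.exists_wperm F n
  rw [hL]
  exact S.vec_wperm L s j hj

variable {n : ↥(D.monomialSubgroup F)} {J : Set ℕ}

theorem IsNegOn.perm_sub (hS : S.SupportEq) (h : IsNegOn S n J) {s : Fin D.nroots}
    (hs : D.InRootSub J s) : S.perm F n s = S.negF s := by
  obtain ⟨-, hs2⟩ := (S.mem_inRootSub hS).mp hs
  refine Fin.ext (S.vec_inj _ (Fin.isLt _) _ (Fin.isLt _) fun j hj => ?_)
  rw [vec_perm_sum S n s j hj, S.negF_val, S.vec_neg j hj s s.isLt]
  rw [Finset.sum_eq_single_of_mem ⟨j, hj⟩ (Finset.mem_univ _) fun m _ hm => ?_]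
  · by_cases hjJ : j ∈ J
    · rw [(h ⟨j, hj⟩).1 hjJ, S.negF_val, S.vec_neg j hj _ (Fin.isLt _),
        show ((S.simpleF ⟨j, hj⟩ : Fin D.nroots) : ℕ) = D.simple j from rfl,
        S.vec_simple j hj j hj, if_pos rfl]
      ring
    · simp [hs2 j hj hjJ]
  · by_cases hmJ : (m : ℕ) ∈ J
    · rw [(h m).1 hmJ, S.negF_val, S.vec_neg j hj _ (Fin.isLt _),
        show ((S.simpleF m : Fin D.nroots) : ℕ) = D.simple m from rfl,
        S.vec_simple m m.isLt j hj, if_neg fun e => hm (Fin.ext e.symm), neg_zero, mul_zero]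
    · rw [hs2 m m.isLt hmJ, zero_mul]

theorem IsNegOn.perm_out (hS : S.SupportEq) (hsq : S.perm F n * S.perm F n = 1)
    (h : IsNegOn S n J) {r : Fin D.nroots} (hr : (r : ℕ) ∈ outSet D J)
    (hp : D.nroots / 2 ≤ (r : ℕ)) :
    D.nroots / 2 ≤ (S.perm F n r : ℕ) ∧ (S.perm F n r : ℕ) ∈ outSet D J := by
  obtain ⟨k, hk, hkJ, hkr⟩ := S.exists_out hS r.isLt hp hr
  have hk' : (S.perm F n (S.simpleF ⟨k, hk⟩) : ℕ) ∈ outSet D J := by
    intro hin
    have h1 := IsNegOn.perm_sub S hS h hin
    rw [← Equiv.Perm.mul_apply, hsq, Equiv.Perm.one_apply] at h1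
    have h2 := S.lt_half_negF.mpr ((h ⟨k, hk⟩).2 hkJ)
    rw [← h1] at h2
    have h3 := S.simple_pos k hk
    simp only [Sys.simpleF] at h2
    omega
  obtain ⟨o, ho, hoJ, hpos⟩ := S.exists_out hS (Fin.isLt _) ((h ⟨k, hk⟩).2 hkJ) hk'
  have hterm : ∀ m : Fin D.rank, 0 ≤ S.vec m r * S.vec o (S.perm F n (S.simpleF m)) := by
    intro m
    refine mul_nonneg (S.vec_pos r r.isLt hp m m.isLt) ?_
    by_cases hmJ : (m : ℕ) ∈ J
    · rw [(h m).1 hmJ, S.negF_val, S.vec_neg o ho _ (Fin.isLt _),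
        show ((S.simpleF m : Fin D.nroots) : ℕ) = D.simple m from rfl,
        S.vec_simple m m.isLt o ho, if_neg fun e => hoJ (by rw [e]; exact hmJ), neg_zero]
    · exact S.vec_pos _ (Fin.isLt _) ((h m).2 hmJ) o ho
  have hv : 0 < S.vec o (S.perm F n r) := by
    rw [vec_perm_sum S n r o ho]
    exact Finset.sum_pos' (fun m _ => hterm m) ⟨⟨k, hk⟩, Finset.mem_univ _, mul_pos hkr hpos⟩
  exact ⟨S.pos_of_vec (Fin.isLt _) ho hv, S.mem_outSet_of_vec hS ho hoJ hv⟩

theorem IsNegOn.mem_parabolic (hS : S.SupportEq) (hsq : S.perm F n * S.perm F n = 1)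
    (h : IsNegOn S n J) : (n : GL D.Idx F) ∈ D.parabolicSubgroup F J :=
  S.monomial_normalizing F hS J _ n rfl fun _ hr hp => IsNegOn.perm_out S hS hsq h hr hp

theorem IsNegOn.flip_iff (hS : S.SupportEq) (hsq : S.perm F n * S.perm F n = 1)
    (h : IsNegOn S n J) (s : Fin D.nroots) (hp : D.nroots / 2 ≤ (s : ℕ)) :
    (S.perm F n s : ℕ) < D.nroots / 2 ↔ D.InRootSub J s := by
  constructor
  · intro h1
    by_contra h2
    have := (IsNegOn.perm_out S hS hsq h h2 hp).1
    omega
  · intro h1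
    rw [IsNegOn.perm_sub S hS h h1]
    exact S.lt_half_negF.mpr hp

/-- A monomial element of a parabolic subgroup preserves the coefficients outside `J`. -/
theorem vec_perm_eq_of_parabolic (hS : S.SupportEq) (m : ↥(D.monomialSubgroup F))
    (hm : (m : GL D.Idx F) ∈ D.parabolicSubgroup F J) {o : ℕ} (ho : o < D.rank) (hoJ : o ∉ J)
    (s : Fin D.nroots) : S.vec o (S.perm F m s) = S.vec o s := by
  have key : ∀ k : ↥(D.monomialSubgroup F), (k : GL D.Idx F) ∈ D.parabolicSubgroup F J →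
      ∀ t : Fin D.nroots, S.vec o t ≤ S.vec o (S.perm F k t) := by
    intro k hk t
    obtain ⟨row, hrow⟩ := exists_col_ne_zero (k : GL D.Idx F) (Sum.inr t)
    have hmono := (S.exists_mono F k.2).choose_spec
    rcases row with i | u
    · exact absurd (hmono.2.1 i t) hrow
    · have hu := hmono.1 u t hrow
      have h1 := levelMono_parabolic S F hS ho hoJ hk _ _ hrow
      simp only [lev] at h1
      rw [hu] at h1
      exact h1
  refine le_antisymm ?_ (key m hm s)
  have h2 := key m⁻¹ (by rw [Subgroup.coe_inv]; exact inv_mem hm) (S.perm F m s)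
  rwa [map_inv, Equiv.Perm.inv_def, Equiv.symm_apply_apply] at h2

theorem pairing_neg_left (S : Sys D) (hi : ∀ i < D.rank, D.reflectRoot i (D.simple i) = D.neg (D.simple i))
    {j : ℕ} (hj : j < D.rank) (s : ℕ) :
    D.pairing (D.neg (D.simple j)) s = -D.pairing (D.simple j) s := by
  rw [S.pairing_eq, S.pairing_eq, ← Finset.sum_neg_distrib]
  refine Finset.sum_congr rfl fun m hm => ?_
  rw [Finset.mem_range] at hm
  have h := S.cor_w j hj _ (S.wf.simple_lt j hj) m hm
  rw [hi j hj] at h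
  have hsum : ((List.range D.rank).map fun k =>
      (D.coroot.getD (D.simple j) #[]).getD k 0 * D.cartan k (D.simple j)).sum = 2 := by
    have h2 := S.cartan_simple hj
    rw [← S.pairing_simple hj] at h2
    rw [ChevalleyDatum.pairing] at h2
    exact h2
  rw [hsum, S.cor_simple j hj m hm] at h
  rw [h, S.cor_simple j hj m hm]
  split_ifs <;> ring

theorem IsNegOn.cartan_perm (h : IsNegOn S n J) {j : ℕ} (hj : j < D.rank) (hjJ : j ∈ J)
    (s : Fin D.nroots) : D.cartan j (S.perm F n s : ℕ) = -D.cartan j s := by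
  obtain ⟨L, hL⟩ := S.exists_wperm F n
  have h1 := S.pairing_wperm L (S.simpleF ⟨j, hj⟩) s
  rw [← hL, (h ⟨j, hj⟩).1 hjJ, S.negF_val] at h1
  simp only [Sys.simpleF] at h1
  rw [pairing_neg_left S (fun i hi => S.w_simple hi) hj, S.pairing_simple hj,
    S.pairing_simple hj] at h1
  omega

end CfsgLib.OddInvol
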