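import Cfsg.Agent.OddInvol.Descent
import Cfsg.Agent.OddInvol.Poly

/-!
Part 6: the rank one certificate: a block of size two of an involution has an eigenvector.
-/

set_option autoImplicit false

namespace CfsgLib.OddInvol

open Cfsg.Lie CfsgLib.Chevalley
open scoped Matrix

variable {D : ChevalleyDatum} {T : Tab} (h : Checked D T) {F : Type*} [Field F]
variable {J : List ℕ} {g : GL D.Idx F} {n : ↥(D.monomialSubgroup F)}

theorem exists_root_eigen {p x y z : F} (h2 : (2 : F) ≠ 0) (e1 : p * p + x * y = 1)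
    (e2 : y * p + z * y = 0) (hy : y ≠ 0) :
    ∃ b : F, y + b * (p - z) - x * b ^ 2 = 0 := by
  have hz : z = -p := by
    have : y * (z + p) = 0 := by linear_combination e2
    rcases mul_eq_zero.mp this with h | h
    · exact absurd h hy
    · linear_combination h
  subst hz
  by_cases hx : x = 0
  · subst hx
    have hp : p ≠ 0 := by intro hp; subst hp; simp at e1
    refine ⟨-y / (2 * p), ?_⟩
    field_simp
    ring
  · refine ⟨(p + 1) / x, ?_⟩
    field_simp
    linear_combination e1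

theorem two_absurd (hs : Setup h J g n) (h2 : (2 : F) ≠ 0) {μ ν j : ℕ} {c : ℤ}
    (hc : chkCert D T J (.two μ ν j c) = true) : False := by
  set S := h.sys with hS
  simp only [chkCert, Bool.and_eq_true, Bool.or_eq_true, List.all_eq_true, List.any_eq_true,
    List.mem_range, decide_eq_true_eq, beq_iff_eq, List.contains_iff_mem] at hc
  obtain ⟨⟨⟨⟨⟨⟨⟨⟨⟨⟨⟨hent, hjJ⟩, hne⟩, hjr⟩, hcu⟩, ⟨o₁, ho₁, hlev⟩⟩, hνlev⟩, hcoset⟩, q11⟩,
    q21⟩, q12⟩, q22⟩ := hc
  have hent' := hent
  simp only [chkEntry, Bool.and_eq_true, decide_eq_true_eq] at hent'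
  obtain ⟨⟨⟨⟨hμ, -⟩, hν⟩, -⟩, -⟩ := hent'
  have hrank : 0 < D.rank := by omega
  set A : D.Idx := Sum.inr ⟨μ, hμ⟩ with hA
  set B : D.Idx := Sum.inr ⟨ν, hν⟩ with hB
  have hAB : A ≠ B := fun e => hne (congrArg Fin.val (Sum.inr.inj e))
  have hlevB : ∀ o ∈ outPos D J, lev S o B = lev S o A := fun o ho => hνlev o ho
  -- the sum over the middle index reduces to the two block indices
  have hsum : ∀ X Y : Matrix D.Idx D.Idx F,
      (∀ o ∈ outPos D J, LevelMono S F o X) → (∀ o ∈ outPos D J, LevelMono S F o Y) →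
      ∀ u s : D.Idx, (u = A ∨ u = B) → (s = A ∨ s = B) →
        (X * Y) u s = X u A * Y A s + X u B * Y B s := by
    intro X Y hX hY u s hu hs'
    have hl : ∀ v : D.Idx, (v = A ∨ v = B) → ∀ o ∈ outPos D J, lev S o v = lev S o A := by
      rintro v (rfl | rfl) o ho
      · rfl
      · exact hlevB o ho
    rw [Matrix.mul_apply, Finset.sum_eq_add A B hAB (fun a _ ha => ?_) (by simp) (by simp)]
    by_contra hne'
    have hla : ∀ o ∈ outPos D J, lev S o a = lev S o A := by
      intro o ho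
      have e1 := hX o ho u a (left_ne_zero_of_mul hne')
      have e2 := hY o ho a s (right_ne_zero_of_mul hne')
      rw [hl u hu o ho] at e1
      rw [hl s hs' o ho] at e2
      omega
    rcases a with i | a
    · exact hlev (hla o₁ ho₁).symm
    · rcases hcoset a a.isLt with (h1 | h1) | ⟨o, ho, h1⟩
      · exact ha.1 (congrArg Sum.inr (Fin.ext h1))
      · exact ha.2 (congrArg Sum.inr (Fin.ext h1))
      · exact h1 (hla o ho)
  -- the root element
  set r := D.neg (D.simple j) with hr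
  have hrl : r < D.nroots := S.wf.neg_lt _ (S.wf.simple_lt j hjr)
  have hrJ : D.InRootSub (lset J) r :=
    S.inRootSub_neg hs.hS (S.inRootSub_simple hs.hS hjJ hjr)
  have hk : ∀ t : F, S.xG F r t ∈ D.parabolicSubgroup F (lset J) := fun t =>
    S.xG_sub_mem_parabolic F hs.hS hrJ t
  have hP : ∀ {y : GL D.Idx F}, y ∈ D.parabolicSubgroup F (lset J) →
      ∀ o ∈ outPos D J, LevelMono S F o (y : Matrix D.Idx D.Idx F) := fun hy o ho =>
    levelMono_parabolic S F hs.hS (mem_outPos.mp ho).1 (mem_outPos.mp ho).2 hy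
  have hg := hP (Setup.mem_parabolic h hs)
  set G := (g : Matrix D.Idx D.Idx F) with hG
  have hGG : G * G = 1 := by rw [hG, ← Units.val_mul, hs.gg, Units.val_one]
  have K : ∀ (t : F) (tgt src : Fin D.nroots), D.x F r t (Sum.inr tgt) (Sum.inr src) =
      pev F t 0 (entryPoly D r (D.rank + tgt) (D.rank + src)) := fun t tgt src =>
    x_entry S.wf hrl t _ _
  have K11 : ∀ t, D.x F r t A A = 1 := fun t => by
    rw [hA, K, polyEqB_sound hrank q11]; simp [pev]
  have K21 : ∀ t, D.x F r t B A = (c : F) * t := fun t => by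
    rw [hA, hB, K, polyEqB_sound hrank q21]; simp [pev]
  have K12 : ∀ t, D.x F r t A B = 0 := fun t => by
    rw [hA, hB, K, polyEqB_sound hrank q12]; simp [pev]
  have K22 : ∀ t, D.x F r t B B = 1 := fun t => by
    rw [hB, K, polyEqB_sound hrank q22]; simp [pev]
  have hy : G B A ≠ 0 := by
    have := Setup.conj_entry_ne h hs (top := ⟨μ, hμ⟩) (bot := ⟨ν, hν⟩) hent
      (one_mem (D.parabolicSubgroup F (lset J)))
    simpa using this
  have e1 : G A A * G A A + G A B * G B A = 1 := by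
    rw [← hsum G G hg hg A A (Or.inl rfl) (Or.inl rfl), hGG, Matrix.one_apply_eq]
  have e2 : G B A * G A A + G B B * G B A = 0 := by
    rw [← hsum G G hg hg B A (Or.inr rfl) (Or.inl rfl), hGG, Matrix.one_apply_ne (Ne.symm hAB)]
  obtain ⟨b, hb⟩ := exists_root_eigen h2 e1 e2 hy
  have hc0 : (c : F) ≠ 0 := unitB_ne_zero hcu h2
  set t := b / (c : F) with ht
  have hct : (c : F) * t = b := by rw [ht, mul_div_cancel₀ _ hc0]
  refine Setup.conj_entry_ne h hs (top := ⟨μ, hμ⟩) (bot := ⟨ν, hν⟩) hent (hk t) ?_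
  rw [Units.val_mul, Units.val_mul, S.xG_inv, S.xG_val, S.xG_val, ← hG, ← hA, ← hB]
  have hkl := hP (hk t)
  rw [S.xG_val] at hkl
  have hkl' := hP (hk (-t))
  rw [S.xG_val] at hkl'
  rw [hsum _ _ (fun o ho => levelMono_mul S F (hkl o ho) (hg o ho)) hkl' B A (Or.inr rfl) (Or.inl rfl),
    hsum _ _ hkl hg B A (Or.inr rfl) (Or.inl rfl), hsum _ _ hkl hg B B (Or.inr rfl) (Or.inr rfl),
    K11, K21, K21, K22, mul_neg, hct]
  linear_combination hb

end CfsgLib.OddInvol
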