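import Cfsg.Agent.OddInvol.Main
import Cfsg.Agent.Chevalley.Poincare

/-!
Part 11: the decomposition of a standard parabolic subgroup of the Weyl group along a checked table
of minimal coset representatives (the argument of `Sys.lenSum_level`, for arbitrary summands).
-/

set_option autoImplicit false

namespace CfsgLib.OddInvol

open Cfsg.Lie CfsgLib.Chevalley

variable {D : ChevalleyDatum} (S : Sys D)

/-- The inversions of a length additive product. -/
theorem invSet_mul {J : List ℕ} {U V : List (Fin D.rank)} (hV : ∀ i ∈ V, (i : ℕ) ∈ J)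
    (hU : ∀ j : Fin D.rank, (j : ℕ) ∈ J → D.nroots / 2 ≤ (S.wperm U (S.simpleF j) : ℕ)) :
    invSet (S.wperm U * S.wperm V) =
      invSet (S.wperm V) ∪ (invSet (S.wperm U)).image (S.wperm V).symm ∧
    Disjoint (invSet (S.wperm V)) ((invSet (S.wperm U)).image (S.wperm V).symm) := by
  classical
  have keep : ∀ s : Fin D.nroots, D.nroots / 2 ≤ (s : ℕ) →
      (S.wperm V s : ℕ) < D.nroots / 2 → (S.wperm U (S.wperm V s) : ℕ) < D.nroots / 2 := by
    intro s hs hv
    have h0 := fun m hm hmJ => S.eq_zero_outside hV (iff_of_true hs hv) (m := m) hm hmJ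
    have h1 := S.keeps_sub hU (s := S.negF (S.wperm V s)) (fun m hm hmJ => by
      rw [S.negF_val, S.vec_neg m hm _ (Fin.isLt _), h0 m hm hmJ, neg_zero])
      (S.root_lt_pos (Fin.isLt _) hv)
    rw [S.wperm_negF] at h1
    have h2 := S.lt_half_negF.mpr h1
    rwa [S.negF_negF] at h2
  have e : invSet (S.wperm U * S.wperm V) =
      invSet (S.wperm V) ∪ (invSet (S.wperm U)).image (S.wperm V).symm := by
    ext s
    simp only [mem_invSet, Finset.mem_union, Finset.mem_image, Equiv.Perm.mul_apply]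
    constructor
    · rintro ⟨hs, h⟩
      rcases lt_or_ge (S.wperm V s : ℕ) (D.nroots / 2) with hv | hv
      · exact Or.inl ⟨hs, hv⟩
      · exact Or.inr ⟨S.wperm V s, ⟨hv, h⟩, Equiv.symm_apply_apply _ _⟩
    · rintro (⟨hs, hv⟩ | ⟨u, ⟨hu, hu'⟩, rfl⟩)
      · exact ⟨hs, keep s hs hv⟩
      · rw [Equiv.apply_symm_apply]
        refine ⟨?_, hu'⟩
        by_contra hs
        have h0 : ∀ m < D.rank, m ∉ J → S.vec m u = 0 := fun m hm hmJ => by
          have h1 := S.eq_zero_outside hV (s := (S.wperm V).symm u)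
            (iff_of_false hs (by rw [Equiv.apply_symm_apply]; omega)) hm hmJ
          rwa [Equiv.apply_symm_apply] at h1
        have := S.keeps_sub hU h0 hu
        omega
  refine ⟨e, ?_⟩
  rw [Finset.disjoint_left]
  intro s hs hs'
  simp only [Finset.mem_image, mem_invSet] at hs hs'
  obtain ⟨u, ⟨hu, -⟩, rfl⟩ := hs'
  rw [Equiv.apply_symm_apply] at hs
  omega

variable (F : Type*) [Field F]

include F in
/-- A sum over `W_top` is a sum over the representatives and `W_sub`. -/
theorem level_split {T : Tab} (hw : ∀ i < D.rank, ∀ s < D.nroots, D.reflectRoot i s = T.wF i s)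
    {V : Level} (h : chkLevel D T V = true) :
    ∃ R : Fin V.reps.length → List (Fin D.rank),
      (∀ a (s : Fin D.nroots), (S.wperm (R a) s : ℕ) = V.img a s) ∧
      (∀ a (j : Fin D.rank), (j : ℕ) ∈ V.sub →
        D.nroots / 2 ≤ (S.wperm (R a) (S.simpleF j) : ℕ)) ∧
      ∀ {β : Type} [AddCommMonoid β] (φ : Equiv.Perm (Fin D.nroots) → β),
        ∑ σ ∈ S.wSet V.top, φ σ = ∑ a, ∑ v ∈ S.wSet V.sub, φ (S.wperm (R a) * v) := by
  classical
  simp only [chkLevel, Bool.and_eq_true, List.all_eq_true, List.any_eq_true, List.mem_range,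
    decide_eq_true_eq, Bool.or_eq_true] at h
  obtain ⟨⟨⟨⟨⟨⟨hN, hlen⟩, hsub⟩, htop⟩, h0⟩, hall⟩, hnd⟩ := h
  have hex : ∀ a, a < V.reps.length → ∃ L : List (Fin D.rank), (∀ i ∈ L, (i : ℕ) ∈ V.top) ∧
      ∀ s : Fin D.nroots, (S.wperm L s : ℕ) = V.img a s := by
    intro a
    induction a using Nat.strong_induction_on with
    | _ a ih =>
      intro ha
      rcases (hall a ha).1.1.1 with rfl | ⟨⟨hi, hb⟩, hp⟩
      · exact ⟨[], by simp, fun s => by rw [h0 s s.isLt]; rfl⟩
      · obtain ⟨L, hL, hs⟩ := ih _ hb (hb.trans ha)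
        refine ⟨⟨_, htop _ hi⟩ :: L, List.forall_mem_cons.mpr ⟨hi, hL⟩, fun s => ?_⟩
        rw [S.wperm_cons, Equiv.Perm.mul_apply, S.srefl_val, hp s s.isLt, hs,
          hw _ (htop _ hi) _ (by rw [← hs]; exact Fin.isLt _)]
  choose R hR hRimg using hex
  have hmin : ∀ a (ha : a < V.reps.length) (j : Fin D.rank), (j : ℕ) ∈ V.sub →
      D.nroots / 2 ≤ (S.wperm (R a ha) (S.simpleF j) : ℕ) := by
    intro a ha j hj
    rw [hRimg]
    exact (hall a ha).1.1.2 _ hj
  have hcardR : ∀ a (ha : a < V.reps.length),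
      (invSet (S.wperm (R a ha))).card = V.lens.getD a 0 := by
    intro a ha
    rw [← (hall a ha).1.2, ← List.toFinset_card_of_nodup ((List.nodup_range).filter _)]
    refine Finset.card_bij (fun s _ => (s : ℕ)) (fun s hs => ?_)
      (fun s _ t _ e => Fin.ext e) fun k hk => ?_
    · rw [mem_invSet, hRimg] at hs
      simp [hs, s.isLt]
    · simp only [List.mem_toFinset, List.mem_filter, List.mem_range, decide_eq_true_eq] at hk
      exact ⟨⟨k, hk.1⟩, by rw [mem_invSet, hRimg]; exact hk.2, rfl⟩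
  have hclosed : ∀ L : List (Fin D.rank), (∀ i ∈ L, (i : ℕ) ∈ V.top) →
      ∃ (a : ℕ) (ha : a < V.reps.length) (M : List (Fin D.rank)),
        (∀ i ∈ M, (i : ℕ) ∈ V.sub) ∧ S.wperm L = S.wperm (R a ha) * S.wperm M := by
    intro L hL
    induction L with
    | nil =>
      refine ⟨0, hN, [], by simp, ?_⟩
      have : S.wperm (R 0 hN) = 1 := Equiv.ext fun s => Fin.ext (by
        rw [hRimg, h0 s s.isLt]; rfl)
      rw [this, one_mul]
    | cons i L ih =>
      rw [List.forall_mem_cons] at hL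
      obtain ⟨a, ha, M, hM, e⟩ := ih hL.2
      obtain ⟨k, hk, hki⟩ := List.getElem_of_mem hL.1
      have hkd : V.top.getD k 0 = (i : ℕ) := by rw [List.getD_eq_getElem _ _ hk, hki]
      rcases (hall a ha).2 k hk with ⟨j, hj, hj'⟩ | ⟨hb, hb'⟩
      · have hjl : j < D.rank := htop _ (hsub _ hj)
        refine ⟨a, ha, ⟨j, hjl⟩ :: M, List.forall_mem_cons.mpr ⟨hj, hM⟩, ?_⟩
        have hconj := S.srefl_mul_wperm F (L := R a ha) (i := i) (j := ⟨j, hjl⟩)
          (Fin.ext (by rw [hRimg]; exact hj'.trans (by rw [hkd]; rfl)))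
        rw [S.wperm_cons, e, ← mul_assoc, hconj, mul_assoc, ← S.wperm_cons]
      · refine ⟨_, hb, M, hM, ?_⟩
        have hperm : S.wperm (i :: R a ha) = S.wperm (R _ hb) := S.wperm_ext fun m => Fin.ext (by
          rw [S.wperm_cons, Equiv.Perm.mul_apply, S.srefl_val, hRimg, hRimg,
            hw _ i.isLt _ (by rw [← hRimg a ha (S.simpleF m)]; exact Fin.isLt _)]
          have := hb' m m.isLt
          rw [hkd] at this
          exact this.symm)
        rw [S.wperm_cons, e, ← mul_assoc, ← S.wperm_cons, hperm]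
  let f : Fin V.reps.length × Equiv.Perm (Fin D.nroots) → Equiv.Perm (Fin D.nroots) :=
    fun x => S.wperm (R x.1 x.1.isLt) * x.2
  have hinj : ∀ x ∈ (Finset.univ ×ˢ S.wSet V.sub), ∀ y ∈ (Finset.univ ×ˢ S.wSet V.sub),
      f x = f y → x = y := by
    rintro ⟨a, v⟩ hv ⟨b, w⟩ hv' e
    simp only [Finset.mem_product, Finset.mem_univ, true_and, Sys.mem_wSet] at hv hv'
    obtain ⟨M, hM, rfl⟩ := hv
    obtain ⟨M', hM', rfl⟩ := hv'
    simp only [f] at e
    have e' : S.wperm (R b b.isLt) = S.wperm (R a a.isLt) * S.wperm (M ++ M'.reverse) := by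
      rw [S.wperm_append, S.wperm_reverse, ← mul_assoc, e, mul_inv_cancel_right]
    have hMM : S.wperm (M ++ M'.reverse) = 1 := by
      refine S.eq_of_coset F (hmin a a.isLt) (hmin b b.isLt) ?_ e'
      intro i hi
      rcases List.mem_append.mp hi with h | h
      · exact hM i h
      · exact hM' i (List.mem_reverse.mp h)
    rw [hMM, mul_one] at e'
    have hab : (a : ℕ) = b := by
      refine (hnd.getElem_inj_iff (hi := by simp) (hj := by simp)).mp ?_
      simp only [List.getElem_map, List.getElem_range]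
      refine List.map_congr_left fun m hm => ?_
      rw [List.mem_range] at hm
      have e2 := congrArg (fun σ : Equiv.Perm (Fin D.nroots) => (σ (S.simpleF ⟨m, hm⟩) : ℕ)) e'
      simp only [hRimg] at e2
      exact e2.symm
    obtain rfl : a = b := Fin.ext hab
    exact Prod.ext rfl (mul_left_cancel e)
  have himage : S.wSet V.top = (Finset.univ ×ˢ S.wSet V.sub).image f := by
    ext σ
    simp only [Finset.mem_image, Finset.mem_product, Finset.mem_univ, true_and, Sys.mem_wSet]
    constructor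
    · rintro ⟨L, hL, rfl⟩
      obtain ⟨a, ha, M, hM, e⟩ := hclosed L hL
      exact ⟨(⟨a, ha⟩, S.wperm M), ⟨M, hM, rfl⟩, e.symm⟩
    · rintro ⟨⟨a, v⟩, ⟨M, hM, rfl⟩, rfl⟩
      refine ⟨R a a.isLt ++ M, fun i hi => ?_, (S.wperm_append _ _).symm⟩
      rcases List.mem_append.mp hi with h | h
      · exact hR a a.isLt i h
      · exact hsub _ (hM i h)
  refine ⟨fun a => R a a.isLt, fun a s => hRimg a a.isLt s, fun a => hmin a a.isLt, ?_⟩
  intro β _ φ
  rw [himage, Finset.sum_image hinj, Finset.sum_product]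

end CfsgLib.OddInvol
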