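import Cfsg.Agent.OddInvol.Parity

/-!
Part 13: the length generating function of the stabiliser of a character of order two, by a
recursion along the chain of parabolic subgroups on vectors indexed by the masks.
-/

set_option autoImplicit false

namespace CfsgLib.OddInvol

open Cfsg.Lie CfsgLib.Chevalley

variable {D : ChevalleyDatum} {T : Tab}

/-- For each representative: the images of the fundamental roots, and the negative images of the
positive roots. -/
abbrev LData : Type := List (List ℕ × List ℕ)

/-- Check of the data of a table of representatives. -/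
def chkLData (D : ChevalleyDatum) (V : Level) (L : LData) : Bool :=
  decide (L.length = V.reps.length) && (List.range V.reps.length).all fun a =>
    decide ((L.getD a ([], [])).1 = (List.range D.rank).map fun m => V.img a (D.simple m)) &&
    decide ((L.getD a ([], [])).2 = ((List.range D.nroots).filter fun s =>
      decide (D.nroots / 2 ≤ s) && decide (V.img a s < D.nroots / 2)).map fun s => V.img a s)

/-- The weight `(2^32)^N` attached to a list of images, scaled. -/
def scaled (P : ParTab) (e : ℕ) (invs : List ℕ) (o : ℕ) : ℕ :=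
  if o = 0 then 0 else o <<< (32 * (invs.filter fun x => !parB P e x).length)

/-- One entry of a step of the recursion. -/
def dpEntry (P : ParTab) (l : ℕ) (L : LData) (old : List ℕ) (e : ℕ) : ℕ :=
  (L.map fun d => scaled P e d.2 (old.getD (maskAt P l e d.1) 0)).sum

/-- Check: a step of the recursion on the listed masks. -/
def chkDp (P : ParTab) (l : ℕ) (L : LData) (old new els : List ℕ) : Bool :=
  els.all fun e => new.getD e 0 == dpEntry P l L old e

/-- Check: the listed masks are stable under the fundamental reflections. -/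
def chkClosed (D : ChevalleyDatum) (P : ParTab) (els : List ℕ) : Bool :=
  els.all fun e => decide (e < 2 ^ D.rank) && (List.range D.rank).all fun i =>
    els.contains (maskAt P D.rank e ((List.range D.rank).map fun m => D.reflectRoot i (D.simple m)))

/-- The start of the recursion. -/
def dpInit (l e₀ : ℕ) : List ℕ := (List.range (2 ^ l)).map fun e => if e = e₀ then 1 else 0

variable (S : Sys D)

/-- The positive roots trivial on `e` made negative. -/
def evenInv (e : ℕ) (σ : Equiv.Perm (Fin D.nroots)) : Finset (Fin D.nroots) :=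
  (invSet σ).filter fun r : Fin D.nroots => cls S e (r : ℕ) = 0

/-- `σ` carries `e₀` to `e`. -/
def Carries (e₀ e : ℕ) (σ : Equiv.Perm (Fin D.nroots)) : Prop :=
  ∀ r : Fin D.nroots, cls S e (σ r : ℕ) = cls S e₀ r

open Classical in
/-- The value computed by the recursion. -/
noncomputable def dpVal (e₀ : ℕ) (J : List ℕ) (e : ℕ) : ℕ :=
  ∑ σ ∈ S.wSet J, if Carries S e₀ e σ then (2 ^ 32) ^ (evenInv S e₀ σ).card else 0

theorem wSet_nil : S.wSet [] = {1} := by
  ext σ
  rw [Sys.mem_wSet, Finset.mem_singleton]
  constructor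
  · rintro ⟨L, hL, rfl⟩
    rcases L with _ | ⟨i, L⟩
    · simp [Sys.wperm]
    · have := hL i List.mem_cons_self
      simp at this
  · rintro rfl
    exact ⟨[], by simp, by simp [Sys.wperm]⟩

theorem dpInit_spec {e₀ : ℕ} (he₀ : e₀ < 2 ^ D.rank) :
    ∀ e < 2 ^ D.rank, (dpInit D.rank e₀).getD e 0 = dpVal S e₀ [] e := by
  classical
  intro e he
  have hinv : evenInv S e₀ (1 : Equiv.Perm (Fin D.nroots)) = ∅ := by
    ext r
    simp [evenInv, mem_invSet]
  rw [List.getD_eq_getElem _ _ (by simpa [dpInit] using he)]
  simp only [dpInit, List.getElem_map, List.getElem_range, dpVal, wSet_nil, Finset.sum_singleton,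
    hinv, Finset.card_empty, pow_zero]
  have : Carries S e₀ e 1 ↔ e = e₀ :=
    ⟨fun h => mask_ext S he he₀ fun r hr => h ⟨r, hr⟩, fun h r => by rw [h]; rfl⟩
  simp only [this]

variable (h : Checked D T) (F : Type*) [Field F]

theorem exists_mem_of_closed {P : ParTab} (hP : chkPar D T P = true) {els : List ℕ}
    (hcl : chkClosed D P els = true) (L : List (Fin D.rank)) :
    ∀ e ∈ els, ∃ e' ∈ els, ∀ r : Fin D.nroots,
      cls h.sys e (h.sys.wperm L r : ℕ) = cls h.sys e' r := by
  simp only [chkClosed, List.all_eq_true, Bool.and_eq_true, decide_eq_true_eq, List.mem_range,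
    List.contains_iff_mem] at hcl
  induction L with
  | nil => exact fun e he => ⟨e, he, fun r => by simp [Sys.wperm]⟩
  | cons i L ih =>
    intro e he
    obtain ⟨hlt, hstep⟩ := hcl e he
    obtain ⟨e', he', hee⟩ := ih _ (hstep i i.isLt)
    refine ⟨e', he', fun r => ?_⟩
    have hw : h.sys.wperm [i] = h.sys.srefl i := by simp [Sys.wperm]
    rw [h.sys.wperm_cons, Equiv.Perm.mul_apply, ← hw, ← hee r]
    refine cls_maskAt h hP hlt [i] _ (fun k => ?_) _
    rw [hw, List.getD_eq_getElem _ _ (by simp)]
    simp [Sys.srefl_val, Sys.simpleF]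

include F in
theorem dpStep_spec {P : ParTab} (hP : chkPar D T P = true) {V : Level}
    (hV : chkLevel D T V = true) {L : LData} (hL : chkLData D V L = true)
    {e₀ : ℕ} {els els' : List ℕ} (hcl : chkClosed D P els = true) (hsub : els' ⊆ els)
    {old new : List ℕ} (hdp : chkDp P D.rank L old new els' = true)
    (hold : ∀ e ∈ els, old.getD e 0 = dpVal h.sys e₀ V.sub e) :
    ∀ e ∈ els', new.getD e 0 = dpVal h.sys e₀ V.top e := by
  classical
  intro e hee
  have hlt : ∀ e ∈ els, e < 2 ^ D.rank := fun e he => by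
    simp only [chkClosed, List.all_eq_true, Bool.and_eq_true, decide_eq_true_eq] at hcl
    exact (hcl e he).1
  have he := hlt e (hsub hee)
  obtain ⟨R, hR, hmin, hsplit⟩ := level_split h.sys F
    (fun i hi s hs => reflectRoot_wF (h.cW i hi) hs) hV
  simp only [chkLData, Bool.and_eq_true, decide_eq_true_eq, List.all_eq_true, List.mem_range] at hL
  obtain ⟨hlen, hdata⟩ := hL
  simp only [chkDp, List.all_eq_true, beq_iff_eq] at hdp
  rw [hdp e hee, dpEntry, dpVal, hsplit, ← List.sum_ofFn]
  congr 1
  refine List.ext_getElem (by simp [hlen]) fun a ha1 ha2 => ?_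
  simp only [List.getElem_ofFn, List.getElem_map]
  have ha : a < V.reps.length := by simpa [hlen] using ha1
  obtain ⟨hd1, hd2⟩ := hdata a ha
  rw [List.getD_eq_getElem _ _ (by omega)] at hd1 hd2
  set d := L[a]'(by omega) with hd
  set u := h.sys.wperm (R ⟨a, ha⟩) with hu
  have hi : ∀ k : Fin D.rank, d.1.getD k 0 = (u (h.sys.simpleF k) : ℕ) := by
    intro k
    rw [hd1, hu, hR, List.getD_eq_getElem _ _ (by simp)]
    simp [Sys.simpleF]
  set e' := maskAt P D.rank e d.1 with he'
  have hcls : ∀ s : Fin D.nroots, cls h.sys e (u s : ℕ) = cls h.sys e' s :=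
    fun s => cls_maskAt h hP he _ _ hi s
  have hmem : e' ∈ els := by
    obtain ⟨x, hx, hxx⟩ := exists_mem_of_closed h hP hcl (R ⟨a, ha⟩) e (hsub hee)
    have : e' = x := mask_ext h.sys (maskAt_lt _ _ _ _) (hlt x hx) fun r hr => by
      rw [← hcls ⟨r, hr⟩, hu, hxx ⟨r, hr⟩]
    rw [this]; exact hx
  rw [hold e' hmem, dpVal]
  -- the number of even inversions of the representative
  have hN : ((invSet u).filter fun s : Fin D.nroots => cls h.sys e' (s : ℕ) = 0).card =
      (d.2.filter fun x => !parB P e x).length := by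
    rw [hd2, List.filter_map, List.length_map, List.filter_filter,
      ← List.toFinset_card_of_nodup ((List.nodup_range).filter _)]
    refine Finset.card_bij (fun s _ => (s : ℕ)) (fun s hs => ?_) (fun s _ t _ h' => Fin.ext h')
      fun k hk => ?_
    · simp only [Finset.mem_filter, mem_invSet, hu, hR] at hs
      rw [← hcls, cls_eq h hP he (Fin.isLt _), hu, hR] at hs
      simp only [List.mem_toFinset, List.mem_filter, List.mem_range, Function.comp_apply,
        Bool.and_eq_true, decide_eq_true_eq, Bool.not_eq_true']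
      refine ⟨s.isLt, ?_, hs.1⟩
      by_contra hp
      simp [hp] at hs
    · simp only [List.mem_toFinset, List.mem_filter, List.mem_range, Function.comp_apply,
        Bool.and_eq_true, decide_eq_true_eq, Bool.not_eq_true'] at hk
      obtain ⟨hk1, hk2, hk3⟩ := hk
      refine ⟨⟨k, hk1⟩, ?_, rfl⟩
      simp only [Finset.mem_filter, mem_invSet, hu, hR]
      refine ⟨hk3, ?_⟩
      rw [show k = ((⟨k, hk1⟩ : Fin D.nroots) : ℕ) from rfl, ← hcls, cls_eq h hP he (Fin.isLt _), hu,
        hR, if_neg (by simp [hk2])]
  have key : ∀ v ∈ h.sys.wSet V.sub,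
      (if Carries h.sys e₀ e (u * v) then ((2 : ℕ) ^ 32) ^ (evenInv h.sys e₀ (u * v)).card else 0) =
        (if Carries h.sys e₀ e' v then ((2 : ℕ) ^ 32) ^ (evenInv h.sys e₀ v).card else 0) *
          (2 ^ 32) ^ (d.2.filter fun x => !parB P e x).length := by
    intro v hv
    obtain ⟨M, hM, rfl⟩ := h.sys.mem_wSet.mp hv
    have hiff : Carries h.sys e₀ e (u * h.sys.wperm M) ↔ Carries h.sys e₀ e' (h.sys.wperm M) := by
      simp only [Carries, Equiv.Perm.mul_apply, hcls]
    by_cases hc : Carries h.sys e₀ e' (h.sys.wperm M)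
    · rw [if_pos hc, if_pos (hiff.mpr hc), ← pow_add]
      congr 1
      obtain ⟨hun, hdisj⟩ := invSet_mul h.sys hM (hmin ⟨a, ha⟩)
      rw [evenInv, evenInv, hu, hun, Finset.filter_union, Finset.card_union_of_disjoint
        (Finset.disjoint_filter_filter hdisj), ← hu, Finset.filter_image,
        Finset.card_image_of_injective _ (Equiv.injective _), ← hN]
      congr 2
      refine Finset.filter_congr fun s _ => ?_
      have := hc ((h.sys.wperm M).symm s)
      rw [Equiv.apply_symm_apply] at this
      rw [this]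
    · rw [if_neg hc, if_neg (fun h' => hc (hiff.mp h')), zero_mul]
  rw [Finset.sum_congr rfl key, ← Finset.sum_mul]
  unfold scaled
  split_ifs with h0
  · rw [h0, zero_mul]
  · rw [Nat.shiftLeft_eq, pow_mul]

/-- Base `2^32` expansions are unique. -/
theorem digits_unique (B : ℕ) : ∀ (m : ℕ) (f g : ℕ → ℕ), (∀ i < m, f i < B) → (∀ i < m, g i < B) →
    ∑ i ∈ Finset.range m, f i * B ^ i = ∑ i ∈ Finset.range m, g i * B ^ i →
    ∀ i < m, f i = g i := by
  intro m
  induction m with
  | zero => intro f g _ _ _ i hi; omega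
  | succ m ih =>
    intro f g hf hg e i hi
    rw [Finset.sum_range_succ', Finset.sum_range_succ'] at e
    simp only [pow_zero, mul_one, pow_succ, ← mul_assoc, ← Finset.sum_mul] at e
    have hB : 0 < B := by have := hf 0 (by omega); omega
    have e0 : f 0 = g 0 := by
      have := congrArg (· % B) e
      simp only [Nat.mul_add_mod_self_right, Nat.mod_eq_of_lt (hf 0 (by omega)),
        Nat.mod_eq_of_lt (hg 0 (by omega))] at this
      exact this
    rcases Nat.eq_zero_or_pos i with rfl | hpos
    · exact e0
    · obtain ⟨k, rfl⟩ : ∃ k, i = k + 1 := ⟨i - 1, by omega⟩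
      rw [e0, add_left_inj] at e
      exact ih (fun j => f (j + 1)) (fun j => g (j + 1)) (fun j hj => hf _ (by omega))
        (fun j hj => hg _ (by omega)) (Nat.eq_of_mul_eq_mul_right hB e) k (by omega)

/-- The packed form of a coefficient list. -/
def packed (m : ℕ) (cs : List ℕ) : ℕ := ((List.range m).map fun i => cs.getD i 0 <<< (32 * i)).sum

/-- The generating function from the packed value. -/
theorem stab_sum {e₀ : ℕ} {cs : List ℕ}
    (hv : packed (D.nroots - D.nroots / 2 + 1) cs = dpVal S e₀ (List.range D.rank) e₀)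
    (hcs : ∀ c ∈ cs, c < 2 ^ 32) (hW : (S.wSet (List.range D.rank)).card < 2 ^ 32) (q : ℕ)
    [DecidablePred (Carries S e₀ e₀)] :
    ∑ σ ∈ (S.wSet (List.range D.rank)).filter (Carries S e₀ e₀), q ^ (evenInv S e₀ σ).card =
      ∑ i ∈ Finset.range (D.nroots - D.nroots / 2 + 1), cs.getD i 0 * q ^ i := by
  classical
  set m := D.nroots - D.nroots / 2 + 1 with hm
  set s := (S.wSet (List.range D.rank)).filter (Carries S e₀ e₀) with hs
  set cnt : ℕ → ℕ := fun i => (s.filter fun σ => (evenInv S e₀ σ).card = i).card with hcnt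
  have hmem : ∀ σ ∈ s, (evenInv S e₀ σ).card ∈ Finset.range m := by
    intro σ _
    rw [Finset.mem_range, hm, Nat.lt_succ_iff, ← Nat.card_Ico]
    refine Finset.card_le_card_of_injOn (fun r => (r : ℕ)) (fun r hr => ?_)
      (fun a _ b _ e => Fin.ext e)
    simp only [evenInv, Finset.coe_filter, Set.mem_setOf_eq, mem_invSet] at hr
    simp [hr.1.1, r.isLt]
  have hsum : ∀ x : ℕ, ∑ σ ∈ s, x ^ (evenInv S e₀ σ).card = ∑ i ∈ Finset.range m, cnt i * x ^ i := by
    intro x
    rw [← Finset.sum_fiberwise_of_maps_to hmem]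
    refine Finset.sum_congr rfl fun i _ => ?_
    rw [Finset.sum_congr rfl fun σ hσ => by rw [(Finset.mem_filter.mp hσ).2], Finset.sum_const,
      smul_eq_mul]
  have hval : dpVal S e₀ (List.range D.rank) e₀ = ∑ σ ∈ s, (2 ^ 32) ^ (evenInv S e₀ σ).card := by
    rw [hs, dpVal, Finset.sum_filter]
    exact Finset.sum_congr rfl fun σ _ => by congr
  have hpk : packed m cs = ∑ i ∈ Finset.range m, cs.getD i 0 * (2 ^ 32) ^ i := by
    rw [packed, ← List.sum_toFinset _ List.nodup_range, List.toFinset_range]
    exact Finset.sum_congr rfl fun i _ => by rw [Nat.shiftLeft_eq, pow_mul]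
  have hlt : ∀ i < m, cs.getD i 0 < 2 ^ 32 := by
    intro i _
    rcases lt_or_ge i cs.length with hi | hi
    · rw [List.getD_eq_getElem _ _ hi]; exact hcs _ (List.getElem_mem hi)
    · rw [List.getD_eq_default _ _ hi]; norm_num
  have heq := digits_unique (2 ^ 32) m cnt (fun i => cs.getD i 0)
    (fun i _ => lt_of_le_of_lt ((Finset.card_filter_le _ _).trans (Finset.card_filter_le _ _)) hW)
    hlt (by rw [← hsum, ← hpk, hv, hval])
  rw [hsum]
  exact Finset.sum_congr rfl fun i hi => by rw [heq i (Finset.mem_range.mp hi)]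

end CfsgLib.OddInvol
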